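import Mathlib

set_option autoImplicit false

namespace Cfsg.Agent.H3

theorem exists_extend_equiv {K V : Type*} [Field K] [AddCommGroup V] [Module K V] [FiniteDimensional K V]
    (U W : Submodule K V) (f : U ≃ₗ[K] W) : ∃ e : V ≃ₗ[K] V, ∀ x : U, e x = f x := by
  obtain ⟨U', hU⟩ := U.exists_isCompl
  obtain ⟨W', hW⟩ := W.exists_isCompl
  have h1 : Module.finrank K U' = Module.finrank K W' := by
    have a1 := Submodule.finrank_add_eq_of_isCompl hU
    have a2 := Submodule.finrank_add_eq_of_isCompl hW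
    have a3 := f.finrank_eq
    omega
  let g := LinearEquiv.ofFinrankEq U' W' h1
  refine ⟨(U.prodEquivOfIsCompl U' hU).symm ≪≫ₗ (f.prodCongr g) ≪≫ₗ (W.prodEquivOfIsCompl W' hW), ?_⟩
  intro x
  simp

theorem exists_equiv_of_linearIndependent {K V ι : Type*} [Field K] [AddCommGroup V] [Module K V]
    [FiniteDimensional K V] (u w : ι → V) (hu : LinearIndependent K u) (hw : LinearIndependent K w) :
    ∃ e : V ≃ₗ[K] V, ∀ i, e (u i) = w i := by
  let bu := Module.Basis.span hu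
  let bw := Module.Basis.span hw
  let f := bu.equiv bw (Equiv.refl ι)
  obtain ⟨e, he⟩ := exists_extend_equiv _ _ f
  refine ⟨e, fun i => ?_⟩
  have h1 : u i = (bu i : V) := by rw [Module.Basis.span_apply]
  rw [h1, he, Module.Basis.equiv_apply]
  simp [bw, Module.Basis.span_apply]

/-- a proper subspace is fixed pointwise by a linear automorphism of arbitrary nonzero determinant -/
theorem exists_fix_det {K V : Type*} [Field K] [AddCommGroup V] [Module K V] [FiniteDimensional K V]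
    (U : Submodule K V) (hU : U ≠ ⊤) (c : K) (hc : c ≠ 0) :
    ∃ e : V ≃ₗ[K] V, (∀ x ∈ U, e x = x) ∧ LinearMap.det (e : V →ₗ[K] V) = c := by
  obtain ⟨x, hx⟩ : ∃ x : V, x ∉ U := by
    by_contra h
    push Not at h
    exact hU (by rw [← top_le_iff]; intro y _; exact h y)
  obtain ⟨f, hfx, hfU⟩ := Submodule.exists_le_ker_of_notMem hx
  have h1 : 1 + f (((c - 1) / f x) • x) = c := by
    rw [map_smul, smul_eq_mul, div_mul_cancel₀ _ hfx]; ring
  have h2 : IsUnit (1 + f (((c - 1) / f x) • x)) := by rw [h1]; exact IsUnit.mk0 c hc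
  refine ⟨LinearEquiv.dilatransvection h2, fun y hy => ?_, ?_⟩
  · rw [LinearEquiv.dilatransvection.apply]
    have : f y = 0 := hfU hy
    rw [this, zero_smul, add_zero]
  · rw [LinearEquiv.dilatransvection.coe_toLinearMap, LinearMap.transvection.det, h1]

/-- a linear automorphism agrees on a proper subspace with one of determinant one -/
theorem exists_sl_agree {K V : Type*} [Field K] [AddCommGroup V] [Module K V] [FiniteDimensional K V]
    (U : Submodule K V) (hU : U ≠ ⊤) (A : V ≃ₗ[K] V) :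
    ∃ B : V ≃ₗ[K] V, (∀ x ∈ U, B x = A x) ∧ LinearMap.det (B : V →ₗ[K] V) = 1 := by
  have hdet : LinearMap.det (A : V →ₗ[K] V) ≠ 0 := (LinearEquiv.isUnit_det' A).ne_zero
  obtain ⟨e, he, hed⟩ := exists_fix_det U hU (LinearMap.det (A : V →ₗ[K] V))⁻¹ (inv_ne_zero hdet)
  refine ⟨e.trans A, fun x hx => by rw [LinearEquiv.trans_apply, he x hx], ?_⟩
  rw [LinearEquiv.coe_trans, LinearMap.det_comp, hed, mul_inv_cancel₀ hdet]

/-- a permutation of `F_p^d` (`p` odd) preserving midpoints is affine -/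
theorem affine_of_midpoint {p : ℕ} [Fact p.Prime] (hp : p ≠ 2) {d : ℕ} (σ : Equiv.Perm (Fin d → ZMod p))
    (h : ∀ x y : Fin d → ZMod p, σ ((2 : ZMod p)⁻¹ • (x + y)) = (2 : ZMod p)⁻¹ • (σ x + σ y)) :
    ∃ (A : (Fin d → ZMod p) ≃ₗ[ZMod p] (Fin d → ZMod p)) (b : Fin d → ZMod p), ∀ x, σ x = A x + b := by
  have h2 : (2 : ZMod p) ≠ 0 := by
    intro h2
    have : ((2 : ℕ) : ZMod p) = 0 := by exact_mod_cast h2
    rw [ZMod.natCast_eq_zero_iff] at this
    exact hp ((Nat.prime_dvd_prime_iff_eq Fact.out Nat.prime_two).mp this)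
  have hadd : ∀ x y, σ (x + y) + σ 0 = σ x + σ y := by
    intro x y
    have h1 := h x y
    have h3 := h (x + y) 0
    rw [add_zero, h1] at h3
    have h4 := congrArg (fun v => (2 : ZMod p) • v) h3
    simp only [smul_smul, mul_inv_cancel₀ h2, one_smul] at h4
    exact h4.symm
  let g : (Fin d → ZMod p) →+ (Fin d → ZMod p) := AddMonoidHom.mk' (fun x => σ x - σ 0) (by
    intro x y
    have := hadd x y
    rw [eq_sub_iff_add_eq.mpr this]
    abel)
  let f := g.toZModLinearMap p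
  have hf : ∀ x, f x = σ x - σ 0 := fun x => rfl
  have hinj : Function.Injective f := by
    intro x y hxy
    rw [hf, hf, sub_left_inj] at hxy
    exact σ.injective hxy
  let A := LinearEquiv.ofInjectiveEndo f hinj
  refine ⟨A, σ 0, fun x => ?_⟩
  have : A x = f x := rfl
  rw [this, hf]; abel

/-- the 3-closure of a group of affine maps in odd characteristic consists of affine maps -/
theorem midpoint_of_three_closed {p : ℕ} [Fact p.Prime] (hp : p ≠ 2) {d : ℕ}
    (G : Set (Equiv.Perm (Fin d → ZMod p)))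
    (haff : ∀ τ ∈ G, ∃ (A : (Fin d → ZMod p) ≃ₗ[ZMod p] (Fin d → ZMod p)) (b : Fin d → ZMod p), ∀ x, τ x = A x + b)
    (σ : Equiv.Perm (Fin d → ZMod p)) (hσ : ∀ t : Fin 3 → (Fin d → ZMod p), ∃ g ∈ G, ∀ i, σ (t i) = g (t i)) :
    ∀ x y : Fin d → ZMod p, σ ((2 : ZMod p)⁻¹ • (x + y)) = (2 : ZMod p)⁻¹ • (σ x + σ y) := by
  have h2 : (2 : ZMod p) ≠ 0 := by
    intro h2
    have : ((2 : ℕ) : ZMod p) = 0 := by exact_mod_cast h2
    rw [ZMod.natCast_eq_zero_iff] at this
    exact hp ((Nat.prime_dvd_prime_iff_eq Fact.out Nat.prime_two).mp this)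
  intro x y
  obtain ⟨g, hg, ht⟩ := hσ ![x, y, (2 : ZMod p)⁻¹ • (x + y)]
  have e0 : σ x = g x := ht 0
  have e1 : σ y = g y := ht 1
  have e2 : σ ((2 : ZMod p)⁻¹ • (x + y)) = g ((2 : ZMod p)⁻¹ • (x + y)) := ht 2
  obtain ⟨A, b, hA⟩ := haff g hg
  rw [e0, e1, e2, hA, hA, hA, map_smul, map_add]
  have h3 : b = (2 : ZMod p)⁻¹ • (b + b) := by
    rw [← two_smul (ZMod p) b, smul_smul, inv_mul_cancel₀ h2, one_smul]
  conv_lhs => rw [h3]
  rw [← smul_add]
  congr 1
  abel

end Cfsg.Agent.H3
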