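import Mathlib
import Cfsg.Prelude
import Cfsg.Agent.L0.Coprime
import Cfsg.Agent.H1.Basic

set_option autoImplicit false
set_option linter.all false
open Cfsg
open Subgroup
open scoped commutatorElement

namespace Cfsg.Agent.H3.MaxCl2
universe u

theorem comm_of_class {X : Type u} [Group X] [Group.IsNilpotent X] (h : Group.nilpotencyClass X ≤ 1) (a b : X) : a * b = b * a := by
  rw [← Subgroup.upperCentralSeries_eq_top_iff_nilpotencyClass_le, Subgroup.upperCentralSeries_one] at h
  have : b ∈ center X := by rw [h]; trivial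
  exact mem_center_iff.1 this a

theorem class_of_comm {X : Type u} [Group X] [Group.IsNilpotent X] (h : ∀ a b : X, a * b = b * a) : Group.nilpotencyClass X ≤ 1 := by
  rw [← Subgroup.upperCentralSeries_eq_top_iff_nilpotencyClass_le, Subgroup.upperCentralSeries_one, eq_top_iff]
  intro x _
  rw [mem_center_iff]
  intro g
  exact h g x

theorem comm_of_cyc_center {X : Type u} [Group X] (N : Subgroup X) [N.Normal] (hN : N ≤ center X) (hc : IsCyclic (X ⧸ N)) (a b : X) :
    a * b = b * a := by
  obtain ⟨g, hg⟩ := hc.exists_generator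
  obtain ⟨c, rfl⟩ := QuotientGroup.mk_surjective g
  have key : ∀ a : X, ∃ (i : ℤ) (z : X), z ∈ center X ∧ a = c ^ i * z := by
    intro a
    obtain ⟨i, hi⟩ := mem_zpowers_iff.1 (hg (a : X ⧸ N))
    have h1 : ((c ^ i : X) : X ⧸ N) = (a : X ⧸ N) := by rw [← hi]; rfl
    rw [QuotientGroup.eq] at h1
    exact ⟨i, _, hN h1, by group⟩
  obtain ⟨i, z, hz, rfl⟩ := key a
  obtain ⟨j, w, hw, rfl⟩ := key b
  have h1 : Commute (c ^ i) w := (mem_center_iff.1 hw (c ^ i))
  have h2 : Commute z (c ^ j) := (mem_center_iff.1 hz (c ^ j)).symm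
  have h3 : Commute z w := (mem_center_iff.1 hw z)
  have h4 : Commute (c ^ i) (c ^ j) := (Commute.refl c).zpow_zpow i j
  exact ((h4.mul_right h1).mul_left (h2.mul_right h3)).eq

theorem class_le {p : ℕ} [hp : Fact p.Prime] (m : ℕ) : ∀ (X : Type u) [Group X] [Finite X], Nat.card X = p ^ m → 2 ≤ m →
    Group.nilpotencyClass X ≤ m - 1 := by
  induction m using Nat.strong_induction_on with
  | _ m ih =>
  intro X _ _ hX hm
  have hP : IsPGroup p X := IsPGroup.of_card hX
  haveI : Group.IsNilpotent X := hP.isNilpotent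
  by_cases hab : ∀ a b : X, a * b = b * a
  · have := class_of_comm hab
    omega
  haveI : Nontrivial X := by
    by_contra hcon
    rw [not_nontrivial_iff_subsingleton] at hcon
    exact hab fun a b => Subsingleton.elim _ _
  haveI := hP.center_nontrivial
  obtain ⟨j, hj⟩ := IsPGroup.iff_card.mp (hP.to_subgroup (center X))
  have hj1 : 1 ≤ j := by
    by_contra h
    have : j = 0 := by omega
    subst this
    rw [pow_zero] at hj
    exact absurd hj (Finite.one_lt_card (α := center X)).ne'
  obtain ⟨i, hi⟩ := IsPGroup.iff_card.mp (hP.to_quotient (center X))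
  have hij : j + i = m := by
    have h1 := (center X).card_mul_index
    rw [hX, hj] at h1
    have h2 : (center X).index = p ^ i := hi
    rw [h2, ← pow_add] at h1
    exact Nat.pow_right_injective hp.out.two_le h1
  have hi2 : 2 ≤ i := by
    by_contra h
    apply hab
    apply comm_of_cyc_center (center X) le_rfl
    have h3 : i = 0 ∨ i = 1 := by omega
    rcases h3 with rfl | rfl
    · haveI : Subsingleton (X ⧸ center X) := (Nat.card_eq_one_iff_unique.1 (by rw [hi, pow_zero])).1
      infer_instance
    · exact isCyclic_of_prime_card (p := p) (by rw [hi, pow_one])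
  have h1 := ih i (by omega) (X ⧸ center X) hi hi2
  rw [Group.nilpotencyClass_eq_quotient_center_plus_one]
  omega

theorem center_card {p : ℕ} [hp : Fact p.Prime] {n : ℕ} {X : Type u} [Group X] [Finite X] (hn : 3 ≤ n) (hX : Nat.card X = p ^ n)
    (hc : Group.nilpotencyClass X = n - 1) : Nat.card (center X) = p ∧ Nat.card (X ⧸ center X) = p ^ (n - 1) ∧
      Group.nilpotencyClass (X ⧸ center X) = n - 2 := by
  have hP : IsPGroup p X := IsPGroup.of_card hX
  haveI : Group.IsNilpotent X := hP.isNilpotent
  have hab : ¬ ∀ a b : X, a * b = b * a := by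
    intro h
    have := class_of_comm h
    omega
  haveI : Nontrivial X := by
    by_contra hcon
    rw [not_nontrivial_iff_subsingleton] at hcon
    exact hab fun a b => Subsingleton.elim _ _
  haveI := hP.center_nontrivial
  obtain ⟨j, hj⟩ := IsPGroup.iff_card.mp (hP.to_subgroup (center X))
  have hj1 : 1 ≤ j := by
    by_contra h
    have : j = 0 := by omega
    subst this
    rw [pow_zero] at hj
    exact absurd hj (Finite.one_lt_card (α := center X)).ne'
  obtain ⟨i, hi⟩ := IsPGroup.iff_card.mp (hP.to_quotient (center X))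
  have hij : j + i = n := by
    have h1 := (center X).card_mul_index
    rw [hX, hj] at h1
    have h2 : (center X).index = p ^ i := hi
    rw [h2, ← pow_add] at h1
    exact Nat.pow_right_injective hp.out.two_le h1
  have hi2 : 2 ≤ i := by
    by_contra h
    apply hab
    apply comm_of_cyc_center (center X) le_rfl
    have h3 : i = 0 ∨ i = 1 := by omega
    rcases h3 with rfl | rfl
    · haveI : Subsingleton (X ⧸ center X) := (Nat.card_eq_one_iff_unique.1 (by rw [hi, pow_zero])).1
      infer_instance
    · exact isCyclic_of_prime_card (p := p) (by rw [hi, pow_one])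
  have h1 := class_le i (X ⧸ center X) hi hi2
  have h2 := Group.nilpotencyClass_eq_quotient_center_plus_one (G := X)
  have hj' : j = 1 := by omega
  subst hj'
  refine ⟨by rw [hj, pow_one], by rw [hi]; congr 1; omega, by omega⟩

theorem exists_cyclic (n : ℕ) : ∀ (X : Type u) [Group X] [Finite X], 3 ≤ n → Nat.card X = 2 ^ n →
    Group.nilpotencyClass X = n - 1 → ∃ C : Subgroup X, IsCyclic C ∧ C.index = 2 := by
  haveI : Fact (Nat.Prime 2) := ⟨Nat.prime_two⟩
  induction n with
  | zero => intro X _ _ h; omega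
  | succ n ih =>
  intro X _ _ hn hX hc
  have hP : IsPGroup 2 X := IsPGroup.of_card hX
  haveI : Group.IsNilpotent X := hP.isNilpotent
  have hab : ¬ ∀ a b : X, a * b = b * a := by
    intro h
    have := class_of_comm h
    omega
  obtain ⟨hZ, hQ, hQc⟩ := center_card hn hX hc
  rcases Nat.lt_or_ge n 3 with hn3 | hn3
  · have hn2 : n = 2 := by omega
    subst hn2
    obtain ⟨x, hx⟩ : ∃ x : X, x * x ≠ 1 := by
      by_contra hcon
      push Not at hcon
      apply hab
      intro a b
      have h1 := hcon a
      have h2 := hcon b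
      have h3 := hcon (b * a)
      calc a * b = (b * b) * (a * b) * (a * a) := by rw [h1, h2]; group
        _ = b * ((b * a) * (b * a)) * a := by group
        _ = b * a := by rw [h3]; group
    obtain ⟨k, hk, hxk⟩ := (Nat.dvd_prime_pow Nat.prime_two).1 (hX ▸ _root_.orderOf_dvd_natCard x)
    have hk' : k = 0 ∨ k = 1 ∨ k = 2 ∨ k = 3 := by omega
    rcases hk' with rfl | rfl | rfl | rfl
    · rw [pow_zero, orderOf_eq_one_iff] at hxk
      rw [hxk] at hx; simp at hx
    · exfalso; apply hx
      rw [← pow_two, ← orderOf_dvd_iff_pow_eq_one, hxk, pow_one]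
    · refine ⟨zpowers x, inferInstance, ?_⟩
      have h1 := (zpowers x).card_mul_index
      rw [Nat.card_zpowers, hxk, hX] at h1
      omega
    · exfalso
      apply hab
      have h1 : zpowers x = ⊤ := by
        apply Subgroup.eq_top_of_card_eq
        rw [Nat.card_zpowers, hxk, hX]
      intro a b
      have ha : a ∈ zpowers x := by rw [h1]; trivial
      have hb : b ∈ zpowers x := by rw [h1]; trivial
      obtain ⟨i, rfl⟩ := ha
      obtain ⟨j, rfl⟩ := hb
      exact ((Commute.refl x).zpow_zpow i j).eq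
  · obtain ⟨Cb, hCb, hCi⟩ := ih (X ⧸ center X) hn3 (by rw [hQ]; rfl) (by rw [hQc]; rfl)
    obtain ⟨g, hg⟩ := hCb.exists_generator
    obtain ⟨c, hc'⟩ := QuotientGroup.mk_surjective (g : X ⧸ center X)
    have hCz : zpowers (c : X ⧸ center X) = Cb := by
      rw [hc']
      apply le_antisymm
      · rw [zpowers_le]; exact g.2
      · intro x hx
        obtain ⟨i, hi⟩ := mem_zpowers_iff.1 (hg ⟨x, hx⟩)
        exact mem_zpowers_iff.2 ⟨i, congrArg Subtype.val hi⟩
    have hord : orderOf (c : X ⧸ center X) = 2 ^ (n - 1) := by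
      have h1 := Cb.card_mul_index
      rw [hCi, hQ, ← hCz, Nat.card_zpowers, Nat.add_sub_cancel] at h1
      have h2 : 2 ^ n = 2 ^ (n - 1) * 2 := by rw [← pow_succ]; congr 1; omega
      omega
    have hzz : ∀ z ∈ center X, z ^ 2 = 1 := by
      intro z hz
      have h1 : (⟨z, hz⟩ : center X) ^ (Nat.card (center X)) = 1 := pow_card_eq_one'
      rw [hZ] at h1
      exact congrArg Subtype.val h1
    have hCbn : Cb.Normal := Subgroup.normal_of_index_eq_two hCi
    have hDn : (zpowers (c ^ 2)).Normal := by
      constructor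
      intro x hx y
      obtain ⟨k, rfl⟩ := mem_zpowers_iff.1 hx
      have h1 : ((y * c * y⁻¹ : X) : X ⧸ center X) ∈ zpowers (c : X ⧸ center X) := by
        rw [hCz]
        have h2 : (c : X ⧸ center X) ∈ Cb := by rw [← hCz]; exact mem_zpowers _
        exact hCbn.conj_mem _ h2 (y : X ⧸ center X)
      obtain ⟨i, hi⟩ := mem_zpowers_iff.1 h1
      have h3 : ((c ^ i : X) : X ⧸ center X) = ((y * c * y⁻¹ : X) : X ⧸ center X) := by rw [← hi]; rfl
      rw [QuotientGroup.eq] at h3
      set z := (c ^ i)⁻¹ * (y * c * y⁻¹) with hz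
      have h4 : y * c * y⁻¹ = c ^ i * z := by rw [hz]; group
      have h5 : y * (c ^ 2) * y⁻¹ = (c ^ 2) ^ i := by
        have h6 : y * (c ^ 2) * y⁻¹ = (y * c * y⁻¹) ^ 2 := by
          rw [pow_two, pow_two]; group
        have hcz : Commute (c ^ i) z := mem_center_iff.1 h3 (c ^ i)
        rw [h6, h4, hcz.mul_pow, hzz z h3, mul_one]
        rw [← zpow_natCast, ← zpow_natCast, ← zpow_mul, ← zpow_mul, mul_comm]
      have h7 : y * (c ^ 2) ^ k * y⁻¹ = (y * (c ^ 2) * y⁻¹) ^ k := (conj_zpow).symm
      rw [h7, h5]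
      exact zpow_mem (zpow_mem (mem_zpowers _) i) k
    have hDne : zpowers (c ^ 2) ≠ ⊥ := by
      intro h
      rw [zpowers_eq_bot] at h
      have h1 : (c : X ⧸ center X) ^ 2 = 1 := by rw [← QuotientGroup.mk_pow, h]; rfl
      have h2 := orderOf_dvd_of_pow_eq_one h1
      rw [hord] at h2
      have h3 := Nat.le_of_dvd (by norm_num) h2
      have h4 : 2 ^ 2 ≤ 2 ^ (n - 1) := Nat.pow_le_pow_right (by norm_num) (by omega)
      omega
    have hint := H1.inf_center_ne_bot (zpowers (c ^ 2)) hDne
    have hZD : center X ≤ zpowers (c ^ 2) := by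
      have h1 : Nat.card ↥(zpowers (c ^ 2) ⊓ center X) ∣ 2 := by rw [← hZ]; exact Subgroup.card_dvd_of_le inf_le_right
      rcases (Nat.dvd_prime Nat.prime_two).1 h1 with h2 | h2
      · exfalso; exact hint (Subgroup.card_eq_one.1 h2)
      · have h3 : zpowers (c ^ 2) ⊓ center X = center X := by
          apply Subgroup.eq_of_le_of_card_ge inf_le_right
          rw [h2, hZ]
        rw [← h3]; exact inf_le_left
    have hZc : center X ≤ zpowers c := hZD.trans (by rw [zpowers_le]; exact pow_mem (mem_zpowers c) 2)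
    refine ⟨zpowers c, inferInstance, ?_⟩
    have h1 := Subgroup.index_map_eq (H := zpowers c) (f := QuotientGroup.mk' (center X)) (QuotientGroup.mk'_surjective _)
      (by rw [QuotientGroup.ker_mk']; exact hZc)
    rw [← h1, MonoidHom.map_zpowers]
    show (zpowers (c : X ⧸ center X)).index = 2
    rw [hCz, hCi]

/-- in a group with abelian subgroup of index two: commuting with an outside element -/
theorem mem_center_of {X : Type u} [Group X] {B : Subgroup X} (hB : ∀ a ∈ B, ∀ b ∈ B, a * b = b * a) (hi : B.index = 2) {t : X}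
    (ht : t ∉ B) {x : X} (hx : x ∈ B) (hxt : x * t = t * x) : x ∈ center X := by
  rw [mem_center_iff]
  intro g
  by_cases hg : g ∈ B
  · exact hB g hg x hx
  · have h1 : g * t⁻¹ ∈ B := by
      rw [Subgroup.mul_mem_iff_of_index_two hi, inv_mem_iff]
      exact ⟨fun h => absurd h hg, fun h => absurd h ht⟩
    have h2 := hB _ h1 x hx
    calc g * x = (g * t⁻¹) * (t * x) := by group
      _ = (g * t⁻¹) * (x * t) := by rw [hxt]
      _ = ((g * t⁻¹) * x) * t := by group
      _ = (x * (g * t⁻¹)) * t := by rw [h2]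
      _ = x * g := by group

theorem center_le {X : Type u} [Group X] {B : Subgroup X} (hB : ∀ a ∈ B, ∀ b ∈ B, a * b = b * a) (hi : B.index = 2)
    (hab : ¬ ∀ a b : X, a * b = b * a) : center X ≤ B := by
  intro z hz
  by_contra hzB
  apply hab
  have key : ∀ b ∈ B, b ∈ center X := fun b hb => mem_center_of hB hi hzB hb (mem_center_iff.1 hz b)
  intro a b
  by_cases ha : a ∈ B
  · exact (mem_center_iff.1 (key a ha) b).symm
  · have h1 : a * z⁻¹ ∈ B := by
      rw [Subgroup.mul_mem_iff_of_index_two hi, inv_mem_iff]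
      exact ⟨fun h => absurd h ha, fun h => absurd h hzB⟩
    have h2 := mul_mem (key _ h1) hz
    have h3 : a * z⁻¹ * z = a := by group
    rw [h3] at h2
    exact (mem_center_iff.1 h2 b).symm

/-- size of the commutator subgroup for a group with an abelian subgroup of index two -/
theorem card_commutator {X : Type u} [Group X] [Finite X] {B : Subgroup X} (hB : ∀ a ∈ B, ∀ b ∈ B, a * b = b * a) (hi : B.index = 2)
    (hab : ¬ ∀ a b : X, a * b = b * a) : Nat.card (commutator X) * Nat.card (center X) = Nat.card B := by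
  have hBn : B.Normal := Subgroup.normal_of_index_eq_two hi
  obtain ⟨t, ht⟩ : ∃ t, t ∉ B := by
    by_contra hcon
    push Not at hcon
    have : B = ⊤ := eq_top_iff.2 fun x _ => hcon x
    rw [this, Subgroup.index_top] at hi
    omega
  let f : B →* X :=
    { toFun := fun b => ⁅(b : X), t⁆
      map_one' := by simp
      map_mul' := by
        intro a b
        show ⁅((a : X) * b), t⁆ = ⁅(a : X), t⁆ * ⁅(b : X), t⁆
        rw [commutatorElement_def, commutatorElement_def, commutatorElement_def]
        have h1 : (b : X) * (t * (b : X)⁻¹ * t⁻¹) * (t * (a : X)⁻¹ * t⁻¹) = (t * (a : X)⁻¹ * t⁻¹) * ((b : X) * (t * (b : X)⁻¹ * t⁻¹)) :=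
          hB _ (mul_mem b.2 (hBn.conj_mem _ (inv_mem b.2) t)) _ (hBn.conj_mem _ (inv_mem a.2) t)
        calc (a : X) * b * t * ((a : X) * b)⁻¹ * t⁻¹ = a * ((b : X) * (t * (b : X)⁻¹ * t⁻¹) * (t * (a : X)⁻¹ * t⁻¹)) := by group
          _ = a * ((t * (a : X)⁻¹ * t⁻¹) * ((b : X) * (t * (b : X)⁻¹ * t⁻¹))) := by rw [h1]
          _ = (a : X) * t * (a : X)⁻¹ * t⁻¹ * ((b : X) * t * (b : X)⁻¹ * t⁻¹) := by group }
  have hfv : ∀ b : B, f b = (b : X) * (t * (b : X)⁻¹ * t⁻¹) := by
    intro b
    show ⁅(b : X), t⁆ = _
    rw [commutatorElement_def]; group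
  have hfB : ∀ b : B, f b ∈ B := fun b => by
    rw [hfv]; exact mul_mem b.2 (hBn.conj_mem _ (inv_mem b.2) t)
  have hker : Nat.card f.ker = Nat.card (center X) := by
    have h1 : f.ker = (center X).subgroupOf B := by
      ext b
      rw [MonoidHom.mem_ker, mem_subgroupOf]
      constructor
      · intro h
        have h2 : ⁅(b : X), t⁆ = 1 := h
        rw [commutatorElement_eq_one_iff_mul_comm] at h2
        exact mem_center_of hB hi ht b.2 h2
      · intro h
        show ⁅(b : X), t⁆ = 1
        rw [commutatorElement_eq_one_iff_mul_comm]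
        exact (mem_center_iff.1 h t).symm
    rw [h1]
    exact Nat.card_congr (Subgroup.subgroupOfEquivOfLe (center_le hB hi hab)).toEquiv
  have hrange : f.range = commutator X := by
    apply le_antisymm
    · rintro _ ⟨b, rfl⟩
      exact commutator_mem_commutator (mem_top _) (mem_top _)
    · have hcov : ∀ g : X, ∃ b ∈ B, g = b ∨ g = b * t := by
        intro g
        by_cases hg : g ∈ B
        · exact ⟨g, hg, Or.inl rfl⟩
        · refine ⟨g * t⁻¹, ?_, Or.inr (by group)⟩
          rw [Subgroup.mul_mem_iff_of_index_two hi, inv_mem_iff]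
          exact ⟨fun h => absurd h hg, fun h => absurd h ht⟩
      have hn : f.range.Normal := by
        constructor
        rintro _ ⟨b, rfl⟩ g
        have hct : ∀ b : B, t * f b * t⁻¹ ∈ f.range := by
          intro b
          refine ⟨⟨t * b * t⁻¹, hBn.conj_mem _ b.2 t⟩, ?_⟩
          rw [hfv, hfv]
          show t * b * t⁻¹ * (t * (t * b * t⁻¹)⁻¹ * t⁻¹) = _
          group
        obtain ⟨b', hb', hgb | hgb⟩ := hcov g <;> rw [hgb]
        · have h1 := hB b' hb' _ (hfB b)
          refine ⟨b, ?_⟩
          calc f b = (b' * b'⁻¹) * f b := by group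
            _ = (b' * f b) * b'⁻¹ := by
              have h2 := hB b'⁻¹ (inv_mem hb') _ (hfB b)
              calc (b' * b'⁻¹) * f b = b' * (b'⁻¹ * f b) := by group
                _ = b' * (f b * b'⁻¹) := by rw [h2]
                _ = _ := by group
        · obtain ⟨b2, hb2⟩ := hct b
          refine ⟨b2, ?_⟩
          have h2 := hB b' hb' _ (hfB b2)
          calc f b2 = b' * f b2 * b'⁻¹ := by rw [h2]; group
            _ = b' * t * f b * (b' * t)⁻¹ := by rw [hb2]; group
      rw [_root_.commutator_def, commutator_le]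
      intro g _ h _
      haveI := hn
      rw [← QuotientGroup.eq_one_iff, ← QuotientGroup.mk'_apply, map_commutatorElement, commutatorElement_eq_one_iff_mul_comm]
      have hbt : ∀ b ∈ B, Commute (QuotientGroup.mk' f.range b) (QuotientGroup.mk' f.range t) := by
        intro b hb
        have h1 : QuotientGroup.mk' f.range ⁅b, t⁆ = 1 := by
          rw [QuotientGroup.mk'_apply, QuotientGroup.eq_one_iff]
          exact ⟨⟨b, hb⟩, rfl⟩
        rw [map_commutatorElement, commutatorElement_eq_one_iff_mul_comm] at h1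
        exact h1
      have hbb : ∀ b ∈ B, ∀ b' ∈ B, Commute (QuotientGroup.mk' f.range b) (QuotientGroup.mk' f.range b') := by
        intro b hb b' hb'
        show _ * _ = _ * _
        rw [← map_mul, ← map_mul, hB b hb b' hb']
      obtain ⟨b, hb, rfl | rfl⟩ := hcov g <;> obtain ⟨b', hb', rfl | rfl⟩ := hcov h
      · exact (hbb _ hb _ hb').eq
      · rw [map_mul]
        exact ((hbb _ hb _ hb').mul_right (hbt _ hb)).eq
      · rw [map_mul]
        exact ((hbb _ hb _ hb').mul_left (hbt _ hb').symm).eq
      · rw [map_mul, map_mul]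
        exact (((hbb _ hb _ hb').mul_right (hbt _ hb)).mul_left ((hbt _ hb').symm.mul_right (Commute.refl _))).eq
  rw [← hrange, ← hker]
  have h1 := f.ker.card_mul_index
  rw [Subgroup.index_ker] at h1
  rw [mul_comm]; exact h1

end Cfsg.Agent.H3.MaxCl2
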