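import Mathlib
import Cfsg.Prelude
import Cfsg.Agent.H3.MaxNil
import Cfsg.Agent.H3.FH
import Cfsg.Agent.H1.FrobPC
import Cfsg.Agent.H6.WeakClosure2

set_option autoImplicit false
set_option linter.all false
open Cfsg
open scoped commutatorElement

namespace Cfsg.Agent.H3
universe u

theorem npc_class2 {G : Type*} [Group G] [Finite G] {p : ℕ} [hp : Fact p.Prime]
    (h : ∀ P : Sylow p G, ∀ R : Subgroup G, R ≤ P → (∀ z ∈ (P : Subgroup G), (∀ y ∈ (P : Subgroup G), z * y = y * z) → z ∈ R) →
      Group.IsNilpotent (Subgroup.normalizer (R : Set G))) : HasNormalPComplement p G := by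
  classical
  apply H1.frobenius_criterion
  intro Q hQ g hg hgo
  obtain ⟨T', hT'⟩ := H6.exists_sylIn (p := p) (Subgroup.normalizer (Q : Set G))
  obtain ⟨P1, hP1⟩ := hT'.isPGroup.exists_le_sylow
  have hQT : Q ≤ T' := by
    have h1 : IsPGroup p ↥(Q ⊔ T') := hQ.to_sup_of_normal_left' hT'.isPGroup hT'.le
    have h2 := hT'.eq_of_le h1 (sup_le Subgroup.le_normalizer hT'.le) le_sup_right
    rw [h2]; exact le_sup_left
  have hCN : Subgroup.centralizer (Q : Set G) ≤ Subgroup.normalizer (Q : Set G) := by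
    intro c hc
    apply H1.mem_normalizer_of_conj_mem
    intro x hx
    rw [Subgroup.mem_centralizer_iff] at hc
    have := hc x hx
    have e : c * x * c⁻¹ = x := by rw [← this]; group
    rw [e]; exact hx
  have hNC : Subgroup.normalizer (Q : Set G) ≤ Subgroup.normalizer ((Subgroup.centralizer (Q : Set G) : Subgroup G) : Set G) := by
    intro n hn
    apply H1.mem_normalizer_of_conj_mem
    intro c hc
    rw [Subgroup.mem_centralizer_iff] at hc ⊢
    intro x hx
    have h1 : n⁻¹ * x * n ∈ Q := by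
      have := (Subgroup.mem_normalizer_iff.1 (inv_mem hn) x).1 hx
      simpa using this
    have h2 := hc _ h1
    calc x * (n * c * n⁻¹) = n * ((n⁻¹ * x * n) * c) * n⁻¹ := by group
      _ = n * (c * (n⁻¹ * x * n)) * n⁻¹ := by rw [h2]
      _ = n * c * n⁻¹ * x := by group
  obtain ⟨c, hc, m, hm, hgcm⟩ := H6.frattini_sub hT' hCN hNC hg
  obtain ⟨hm1, hm2⟩ := Subgroup.mem_inf.1 hm
  set R := Q ⊔ (T' ⊓ Subgroup.centralizer (Q : Set G)) with hR
  have hmR : m ∈ Subgroup.normalizer (R : Set G) := by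
    rw [H6.mem_norm, hR, H6.cj_sup, H6.mem_norm.1 hm1, H6.mem_norm.1 hm2]
  have hnil := h P1 R (sup_le (hQT.trans hP1) (inf_le_left.trans hP1)) (by
    intro z hz hzc
    have hzC : z ∈ Subgroup.centralizer (Q : Set G) := by
      rw [Subgroup.mem_centralizer_iff]
      intro x hx
      exact (hzc x (hP1 (hQT hx))).symm
    have hzT : z ∈ T' := by
      have h1 : IsPGroup p ↥((P1 : Subgroup G) ⊓ Subgroup.normalizer (Q : Set G)) := P1.2.to_le inf_le_left
      have h2 := hT'.eq_of_le h1 inf_le_right (le_inf hP1 hT'.le)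
      rw [h2]
      exact Subgroup.mem_inf.2 ⟨hz, hCN hzC⟩
    exact (le_sup_right : (T' ⊓ Subgroup.centralizer (Q : Set G)) ≤ R) (Subgroup.mem_inf.2 ⟨hzT, hzC⟩))
  have hQM : Q ≤ Subgroup.normalizer (R : Set G) := (le_sup_left : Q ≤ R).trans Subgroup.le_normalizer
  -- action of g on Q is that of m
  have hact : ∀ x ∈ Q, g * x * g⁻¹ = m * x * m⁻¹ := by
    intro x hx
    have h1 := (Subgroup.mem_normalizer_iff.1 hm1 x).1 hx
    rw [Subgroup.mem_centralizer_iff] at hc
    have h2 := hc _ h1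
    rw [hgcm]
    calc c * m * x * (c * m)⁻¹ = (c * (m * x * m⁻¹)) * c⁻¹ := by group
      _ = ((m * x * m⁻¹) * c) * c⁻¹ := by rw [h2]
      _ = m * x * m⁻¹ := by group
  have hactn : ∀ n : ℕ, ∀ x ∈ Q, g ^ n * x * (g ^ n)⁻¹ = m ^ n * x * (m ^ n)⁻¹ := by
    intro n
    induction n with
    | zero => intro x _; simp
    | succ n ih =>
      intro x hx
      have h1 := (Subgroup.mem_normalizer_iff.1 hg x).1 hx
      calc g ^ (n + 1) * x * (g ^ (n + 1))⁻¹ = g ^ n * (g * x * g⁻¹) * (g ^ n)⁻¹ := by rw [pow_succ]; group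
        _ = m ^ n * (g * x * g⁻¹) * (m ^ n)⁻¹ := ih _ h1
        _ = m ^ n * (m * x * m⁻¹) * (m ^ n)⁻¹ := by rw [hact x hx]
        _ = m ^ (n + 1) * x * (m ^ (n + 1))⁻¹ := by rw [pow_succ]; group
  obtain ⟨a, b, hb, hab⟩ := Nat.exists_eq_pow_mul_and_not_dvd (orderOf_pos m).ne' p hp.out.one_lt.ne'
  have hgC : g ^ (p ^ a) ∈ Subgroup.centralizer (Q : Set G) := by
    rw [Subgroup.mem_centralizer_iff]
    intro x hx
    have hcm : Commute (m ^ (p ^ a)) x := by
      have h1 := commute_of_coprime_of_nilpotent hnil (⟨m, hmR⟩ ^ (p ^ a)) ⟨x, hQM hx⟩ (by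
        obtain ⟨j, hj⟩ := (IsPGroup.iff_orderOf.mp hQ) ⟨x, hx⟩
        rw [Subgroup.orderOf_mk] at hj
        have hj' : orderOf (⟨x, hQM hx⟩ : Subgroup.normalizer (R : Set G)) = p ^ j := by
          rw [Subgroup.orderOf_mk]; exact hj
        rw [hj']
        apply Nat.Coprime.pow_right
        have h3 : orderOf ((⟨m, hmR⟩ : Subgroup.normalizer (R : Set G)) ^ (p ^ a)) ∣ b := by
          apply orderOf_dvd_of_pow_eq_one
          rw [← pow_mul, ← hab]
          apply Subtype.ext
          show m ^ orderOf m = 1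
          exact pow_orderOf_eq_one m
        exact Nat.Coprime.coprime_dvd_left h3 ((Nat.Prime.coprime_iff_not_dvd hp.out).2 hb).symm)
      have h2 := congrArg Subtype.val h1.eq
      exact h2
    have h1 := hactn (p ^ a) x hx
    have h2 : m ^ (p ^ a) * x * (m ^ (p ^ a))⁻¹ = x := by rw [hcm.eq]; group
    rw [h2] at h1
    calc x * g ^ (p ^ a) = (g ^ (p ^ a) * x * (g ^ (p ^ a))⁻¹) * g ^ (p ^ a) := by rw [h1]
      _ = g ^ (p ^ a) * x := by group
  have hgz : g ∈ Subgroup.zpowers (g ^ (p ^ a)) := by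
    rw [mem_zpowers_pow_iff]
    exact (hgo.pow_right a).symm
  have : Subgroup.zpowers (g ^ (p ^ a)) ≤ Subgroup.centralizer (Q : Set G) := by
    rw [Subgroup.zpowers_le]; exact hgC
  exact this hgz

/-- A finite group with a nilpotent maximal subgroup of class at most two is solvable. -/
theorem solvable_of_coatom_class_two_aux (n : ℕ) : ∀ (G : Type u) [Group G] [Finite G], Nat.card G = n →
    ∀ (M : Subgroup G), IsCoatom M → Group.IsNilpotent M → Group.nilpotencyClass M ≤ 2 →
    Group.IsSolvable G := by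
  induction n using Nat.strong_induction_on with
  | _ n ih =>
  intro G _ _ hcard M hM hn h2
  by_cases hcore : ∀ K : Subgroup G, K.Normal → K ≤ M → K = ⊥
  swap
  · push Not at hcore
    obtain ⟨K, hKn, hKM, hKb⟩ := hcore
    haveI := hKn
    haveI hKs : Group.IsSolvable K := by
      haveI := hn
      have h1 : Group.IsSolvable M := inferInstance
      exact L0.isSolvable_subgroup_of_le hKM h1
    haveI hQs : Group.IsSolvable (G ⧸ K) := by
      refine ih (Nat.card (G ⧸ K)) ?_ (G ⧸ K) rfl (M.map (QuotientGroup.mk' K)) (isCoatom_map_mk K M hKM hM) ?_ ?_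
      · rw [← hcard, ← Subgroup.card_mul_index K]
        have h1 : 1 < Nat.card K := by
          rw [Subgroup.one_lt_card_iff_ne_bot]; exact hKb
        have h3 : 0 < K.index := Nat.pos_of_ne_zero Subgroup.index_ne_zero_of_finite
        have h4 : Nat.card (G ⧸ K) = K.index := rfl
        rw [h4]; nlinarith
      · haveI := hn
        exact Group.nilpotent_of_surjective ((QuotientGroup.mk' K).subgroupMap M)
          (MonoidHom.subgroupMap_surjective _ _)
      · haveI := hn
        exact (Group.nilpotencyClass_le_of_surjective ((QuotientGroup.mk' K).subgroupMap M)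
          (MonoidHom.subgroupMap_surjective _ _)).trans h2
    exact Group.isSolvable_of_ker_le_range K.subtype (QuotientGroup.mk' K) (by
      rw [QuotientGroup.ker_mk', Subgroup.range_subtype])
  -- core-free case
  have hMs : Group.IsSolvable M := by haveI := hn; infer_instance
  have hnpc : ∀ q : ℕ, q.Prime → q ∣ Nat.card M → HasNormalPComplement q G := by
    intro q hq hqM
    haveI : Fact q.Prime := ⟨hq⟩
    obtain ⟨S, hSb, hSM, hNS⟩ := sylow_of_coatom M hM hn hcore q hqM
    apply npc_class2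
    intro P R hRP hRZ
    obtain ⟨x, hx⟩ := MulAction.exists_smul_eq G P S
    have hcen : ∀ a ∈ M, ∀ b ∈ M, ∀ c ∈ M, (a * b * a⁻¹ * b⁻¹) * c = c * (a * b * a⁻¹ * b⁻¹) := by
      intro a ha b hb c hc
      haveI := hn
      have h3 := (Subgroup.upperCentralSeries_eq_top_iff_nilpotencyClass_le (G := M) (n := 2)).2 h2
      have h4 : (⟨a, ha⟩ : M) ∈ Subgroup.upperCentralSeries M 2 := by rw [h3]; trivial
      have h5 := (Subgroup.mem_upperCentralSeries_succ_iff (n := 1)).1 h4 ⟨b, hb⟩
      rw [Subgroup.upperCentralSeries_one, Subgroup.mem_center_iff] at h5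
      have h6 := congrArg Subtype.val (h5 ⟨c, hc⟩)
      have h7 : ((⁅(⟨a, ha⟩ : M), ⟨b, hb⟩⁆ : M) : G) = a * b * a⁻¹ * b⁻¹ := by
        rw [commutatorElement_def]; rfl
      have h8 : c * ((⁅(⟨a, ha⟩ : M), ⟨b, hb⟩⁆ : M) : G) = ((⁅(⟨a, ha⟩ : M), ⟨b, hb⟩⁆ : M) : G) * c := h6
      rw [h7] at h8
      exact h8.symm
    set R2 := R.map (MulAut.conj x).toMonoidHom with hR2
    have hmemR2 : ∀ z : G, z ∈ R2 ↔ x⁻¹ * z * x ∈ R := by
      intro z
      constructor
      · rintro ⟨y, hy, rfl⟩
        show x⁻¹ * (x * y * x⁻¹) * x ∈ R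
        have : x⁻¹ * (x * y * x⁻¹) * x = y := by group
        rw [this]; exact hy
      · intro hz
        refine ⟨_, hz, ?_⟩
        show x * (x⁻¹ * z * x) * x⁻¹ = z
        group
    have hmemS : ∀ z : G, z ∈ (S : Subgroup G) ↔ x⁻¹ * z * x ∈ (P : Subgroup G) := by
      intro z
      rw [← hx]
      exact mem_smul_sylow_iff P x z
    have hR2S : R2 ≤ S := by
      intro z hz
      rw [hmemR2] at hz
      exact (hmemS z).2 (hRP hz)
    have hZR2 : ∀ z ∈ (S : Subgroup G), (∀ y ∈ (S : Subgroup G), z * y = y * z) → z ∈ R2 := by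
      intro z hz hzc
      rw [hmemR2]
      apply hRZ _ ((hmemS z).1 hz)
      intro y hy
      have h3 := hzc (x * y * x⁻¹) ((hmemS _).2 (by
        have : x⁻¹ * (x * y * x⁻¹) * x = y := by group
        rw [this]; exact hy))
      calc x⁻¹ * z * x * y = x⁻¹ * (z * (x * y * x⁻¹)) * x := by group
        _ = x⁻¹ * ((x * y * x⁻¹) * z) * x := by rw [h3]
        _ = y * (x⁻¹ * z * x) := by group
    have hMR2 : M ≤ Subgroup.normalizer (R2 : Set G) := by
      intro m hm
      apply H1.mem_normalizer_of_conj_mem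
      intro r hr
      have hrS := hR2S hr
      have hrM := hSM hrS
      have h3 : m * r * m⁻¹ ∈ (S : Subgroup G) := by
        have h4 : m ∈ Subgroup.normalizer ((S : Subgroup G) : Set G) := by rw [hNS]; exact hm
        exact (Subgroup.mem_normalizer_iff.1 h4 r).1 hrS
      have h5 : m * r * m⁻¹ * r⁻¹ ∈ R2 := by
        apply hZR2 _ (mul_mem h3 (inv_mem hrS))
        intro y hy
        exact hcen m hm r hrM y (hSM hy)
      have h6 : m * r * m⁻¹ = (m * r * m⁻¹ * r⁻¹) * r := by group
      rw [h6]; exact mul_mem h5 hr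
    have hNR2 : Subgroup.normalizer (R2 : Set G) = M := by
      rcases hM.le_iff.mp hMR2 with h | h
      · exfalso
        have h3 := hcore _ (Subgroup.normalizer_eq_top_iff.mp h) (hR2S.trans hSM)
        haveI : Nontrivial (S : Subgroup G) := by
          rw [Subgroup.nontrivial_iff_ne_bot]; exact hSb
        haveI := S.2.center_nontrivial
        obtain ⟨z, hz⟩ := exists_ne (1 : Subgroup.center (S : Subgroup G))
        have h4 := hZR2 ((z : (S : Subgroup G)) : G) (z : (S : Subgroup G)).2 (by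
          intro y hy
          exact (congrArg Subtype.val (Subgroup.mem_center_iff.1 z.2 ⟨y, hy⟩)).symm)
        rw [h3, Subgroup.mem_bot] at h4
        exact hz (Subtype.ext (Subtype.ext h4))
      · exact h
    have hle : Subgroup.normalizer (R : Set G) ≤ M.map (MulAut.conj x⁻¹).toMonoidHom := by
      intro n hn'
      refine ⟨x * n * x⁻¹, ?_, ?_⟩
      · show x * n * x⁻¹ ∈ M
        rw [← hNR2]
        apply H1.mem_normalizer_of_conj_mem
        intro r hr
        rw [hmemR2] at hr ⊢
        have h3 := (Subgroup.mem_normalizer_iff.1 hn' _).1 hr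
        have h4 : x⁻¹ * (x * n * x⁻¹ * r * (x * n * x⁻¹)⁻¹) * x = n * (x⁻¹ * r * x) * n⁻¹ := by group
        rw [h4]; exact h3
      · show x⁻¹ * (x * n * x⁻¹) * x⁻¹⁻¹ = n
        group
    haveI := hn
    have hnM : Group.IsNilpotent (M.map (MulAut.conj x⁻¹).toMonoidHom) :=
      Group.nilpotent_of_surjective ((MulAut.conj x⁻¹).toMonoidHom.subgroupMap M) (MonoidHom.subgroupMap_surjective _ _)
    exact L0.isNilpotent_of_le hnM hle
  -- the intersection of the normal complements
  let I := {q : ℕ // q.Prime ∧ q ∣ Nat.card M}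
  haveI : Finite I := by
    have : ((Nat.card M).primeFactors : Set ℕ).Finite := Finset.finite_toSet _
    refine Set.Finite.to_subtype (s := {q : ℕ | q.Prime ∧ q ∣ Nat.card M}) (this.subset ?_)
    rintro q ⟨h1, h3⟩
    exact Finset.mem_coe.mpr (Nat.mem_primeFactors.mpr ⟨h1, h3, Nat.card_pos.ne'⟩)
  haveI : Fintype I := Fintype.ofFinite I
  let N : Subgroup G := ⨅ q : I, pPrimeCore q.1 G
  haveI hNn : N.Normal := Subgroup.normal_iInf_normal (fun q => inferInstance)
  have hNco : (Nat.card M).Coprime (Nat.card N) := by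
    apply Nat.coprime_of_dvd
    intro q hq hqM hqN
    haveI : Fact q.Prime := ⟨hq⟩
    have h1 : N ≤ pPrimeCore q G := iInf_le _ (⟨q, hq, hqM⟩ : I)
    exact L0.not_dvd_card_pPrimeCore q G (hqN.trans (Subgroup.card_dvd_of_le h1))
  have hser : ∃ m : ℕ, derivedSeries G m ≤ N := by
    have hq : ∀ q : I, ∃ m : ℕ, derivedSeries G m ≤ pPrimeCore q.1 G := by
      rintro ⟨q, hq, hqM⟩
      haveI : Fact q.Prime := ⟨hq⟩
      obtain ⟨K, hKn, hKc, k, hk⟩ := H1.hasNormalPComplement_iff.mp (hnpc q hq hqM)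
      have h1 : K ≤ pPrimeCore q G := L0.le_pPrimeCore hKc
      haveI := hKn
      have h2 : IsPGroup q (G ⧸ K) := IsPGroup.of_card (n := k) (by rw [← hk]; rfl)
      haveI := h2.isNilpotent
      have h3 : Group.IsSolvable (G ⧸ K) := inferInstance
      obtain ⟨m, hm⟩ := (Group.isSolvable_def _).mp h3
      refine ⟨m, le_trans ?_ h1⟩
      have h4 := map_derivedSeries_eq (QuotientGroup.mk'_surjective K) m
      rw [hm, Subgroup.map_eq_bot_iff, QuotientGroup.ker_mk'] at h4
      exact h4
    choose m hm using hq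
    refine ⟨∑ q : I, m q, le_iInf fun q => le_trans ?_ (hm q)⟩
    exact derivedSeries_antitone G (Finset.single_le_sum (f := m) (fun _ _ => Nat.zero_le _) (Finset.mem_univ q))
  by_cases hNb : N = ⊥
  · obtain ⟨m, hm⟩ := hser
    rw [hNb, le_bot_iff] at hm
    exact (Group.isSolvable_def _).mpr ⟨m, hm⟩
  have hNc : Nat.card N ≠ 1 := fun h => hNb (Subgroup.card_eq_one.mp h)
  obtain ⟨r, hr, hrN⟩ := Nat.exists_prime_and_dvd hNc
  haveI : Fact r.Prime := ⟨hr⟩
  have hMN : M ≤ Subgroup.normalizer (N : Set G) := by rw [Subgroup.normalizer_eq_top]; exact le_top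
  obtain ⟨R, hRs, hMR⟩ := L0.exists_invariant_sylow (p := r) hMN hNco (Or.inl hMs)
  have hRN := hRs.le
  have hRb : R ≠ ⊥ := by
    intro h
    have h1 := (L0.isSylowIn_iff_card.mp hRs).2
    rw [h, Subgroup.card_bot] at h1
    have h3 := (Nat.Prime.dvd_iff_one_le_factorization hr Nat.card_pos.ne').mp hrN
    have h4 := Nat.one_lt_pow (n := (Nat.card N).factorization r) (by omega) hr.one_lt
    omega
  have hRM : ¬ R ≤ M := by
    intro h
    apply hRb
    have h1 : M ⊓ N = ⊥ := L0.inf_eq_bot_of_coprime' hNco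
    rw [eq_bot_iff, ← h1]
    exact le_inf h hRN
  have htop : M ⊔ R = ⊤ := by
    apply hM.2
    refine lt_of_le_of_ne le_sup_left ?_
    intro h
    exact hRM (h ▸ le_sup_right)
  have hRn : R.Normal := by
    rw [← Subgroup.normalizer_eq_top_iff, eq_top_iff, ← htop]
    exact sup_le hMR Subgroup.le_normalizer
  haveI hRsol : Group.IsSolvable R := by
    haveI := hRs.isPGroup.isNilpotent
    infer_instance
  haveI hQ : Group.IsSolvable (G ⧸ R) := by
    haveI := hMs
    refine Group.isSolvable_of_surjective (f := (QuotientGroup.mk' R).comp M.subtype) ?_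
    intro x
    obtain ⟨g, rfl⟩ := QuotientGroup.mk_surjective x
    have hg : g ∈ M ⊔ R := by rw [htop]; trivial
    obtain ⟨m, hm, y, hy, rfl⟩ := Subgroup.mem_sup_of_normal_right.mp hg
    refine ⟨⟨m, hm⟩, ?_⟩
    show ((m : G) : G ⧸ R) = ((m * y : G) : G ⧸ R)
    rw [QuotientGroup.mk_mul, (QuotientGroup.eq_one_iff y).mpr hy, mul_one]
  exact Group.isSolvable_of_ker_le_range R.subtype (QuotientGroup.mk' R) (by
      rw [QuotientGroup.ker_mk', Subgroup.range_subtype])


end Cfsg.Agent.H3
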