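import Cfsg.Agent.H3.Meta2
import Cfsg.Agent.H6.CopFrat
import Cfsg.Agent.H6.Critical4

set_option autoImplicit false
set_option linter.unusedSectionVars false
set_option linter.unusedSimpArgs false
set_option linter.unusedVariables false
open Cfsg
open scoped commutatorElement
open Subgroup

namespace Cfsg.Agent.H3.Meta

universe u
variable {G : Type u} [Group G] [Finite G] {p : ℕ} [hp : Fact p.Prime]

theorem E_mono (hmc : IsMetacyclic G) {q r : ℕ} (h : q ∣ r) : E hmc q ≤ E hmc r := by
  obtain ⟨m, rfl⟩ := h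
  intro g hg y
  rw [pow_mul, hg y, one_pow]

theorem card_E (hp2 : p ≠ 2) (hG : IsPGroup p G) (hmc : IsMetacyclic G) {n k : ℕ}
    (hn : Nat.card ↥(commutator G) = p ^ n) (hk : k ≤ n) :
    Nat.card ↥(E hmc (p ^ k)) = Nat.card ↥(center G) * p ^ (2 * k) := by
  have h1 := (E hmc (p ^ k)).index_mul_card
  have h2 := (center G).index_mul_card
  rw [index_E hp2 hG hmc hn hk] at h1
  rw [index_center hp2 hG hmc, hn, ← h1] at h2
  have h3 : 0 < (p ^ (n - k)) ^ 2 := by have := hp.out.pos; positivity
  apply Nat.eq_of_mul_eq_mul_left h3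
  rw [← h2]
  have h4 : (p ^ n) ^ 2 = (p ^ (n - k)) ^ 2 * p ^ (2 * k) := by
    rw [← pow_mul, ← pow_mul, ← pow_add]; congr 1; omega
  rw [h4]; ring

theorem E_top (hmc : IsMetacyclic G) {q : ℕ} (hq : Nat.card ↥(commutator G) = q) : E hmc q = ⊤ := by
  rw [eq_top_iff]
  intro g _ y
  have h1 : (⟨⁅g, y⁆, comm_mem g y⟩ : ↥(commutator G)) ^ q = 1 := by rw [← hq]; exact pow_card_eq_one'
  exact congrArg Subtype.val h1

theorem closure_pow (hp2 : p ≠ 2) (hG : IsPGroup p G) (hmc : IsMetacyclic G) {n s : ℕ}
    (hn : Nat.card ↥(commutator G) = p ^ n) (hs : s ≤ n) :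
    Subgroup.closure {x : G | ∃ y : G, y ^ p ^ s = x} = E hmc (p ^ (n - s)) := by
  apply le_antisymm
  · rw [Subgroup.closure_le]
    rintro x ⟨y, rfl⟩
    show y ^ p ^ s ∈ E hmc (p ^ (n - s))
    rw [pow_mem_E hp2 hG hmc, ← pow_add, Nat.add_sub_cancel' hs, E_top hmc hn]
    exact mem_top _
  · intro g hgE
    obtain ⟨a, b, ha, hg, -⟩ := gens hmc
    obtain ⟨i, j, rfl⟩ := hg g
    rw [mem_E_iff hp2 hG hmc ha hg hn (Nat.sub_le n s), Nat.sub_sub_self hs] at hgE
    obtain ⟨⟨i', hi⟩, ⟨j', hj⟩⟩ := hgE
    rw [hi, hj, mul_comm _ i', mul_comm _ j', zpow_mul, zpow_mul, zpow_natCast, zpow_natCast]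
    exact mul_mem (Subgroup.subset_closure ⟨_, rfl⟩) (Subgroup.subset_closure ⟨_, rfl⟩)

theorem centralizer_sup_center (g : G) :
    centralizer ((zpowers g ⊔ center G : Subgroup G) : Set G) = centralizer ({g} : Set G) := by
  apply le_antisymm
  · exact Subgroup.centralizer_le (Set.singleton_subset_iff.2 (mem_sup_left (mem_zpowers g)))
  · intro y hy
    have h1 : zpowers g ⊔ center G ≤ centralizer ({y} : Set G) := by
      rw [sup_le_iff, zpowers_le]
      constructor
      · rw [mem_centralizer_singleton_iff] at hy ⊢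
        exact hy.symm
      · intro z hz
        rw [mem_centralizer_singleton_iff]
        exact (mem_center_iff.1 hz y).symm
    rw [mem_centralizer_iff]
    intro r hr
    exact (mem_centralizer_singleton_iff.1 (h1 hr))

theorem index_centralizer (hp2 : p ≠ 2) (hG : IsPGroup p G) (hmc : IsMetacyclic G) (g : G) :
    (centralizer ({g} : Set G)).index = (center G).relIndex (zpowers g ⊔ center G) := by
  have h1 := duality hp2 hG hmc (R := zpowers g ⊔ center G) le_sup_right
  rw [centralizer_sup_center] at h1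
  have h2 := relIndex_card (R := center G) (S := zpowers g ⊔ center G) le_sup_right
  have h3 := (centralizer ({g} : Set G)).index_mul_card
  rw [← h2, ← h3] at h1
  have h4 : 0 < Nat.card ↥(center G) * Nat.card ↥(centralizer ({g} : Set G)) := Nat.mul_pos Nat.card_pos Nat.card_pos
  apply Nat.eq_of_mul_eq_mul_right h4
  rw [show (centralizer ({g} : Set G)).index * (Nat.card ↥(center G) * Nat.card ↥(centralizer ({g} : Set G))) = (centralizer ({g} : Set G)).index * Nat.card ↥(centralizer ({g} : Set G)) * Nat.card ↥(center G) by ring, ← h1]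
  ring

theorem index_le_iff (hp2 : p ≠ 2) (hG : IsPGroup p G) (hmc : IsMetacyclic G) (g : G) (k : ℕ) :
    (centralizer ({g} : Set G)).index ≤ p ^ k ↔ g ∈ E hmc (p ^ k) := by
  constructor
  · intro h
    obtain ⟨l, hl⟩ := (hG.index (centralizer ({g} : Set G)))
    rw [hl] at h
    have hlk : l ≤ k := (Nat.pow_le_pow_iff_right hp.out.one_lt).1 h
    apply E_mono hmc (pow_dvd_pow p hlk)
    rw [index_centralizer hp2 hG hmc] at hl
    have h1 := Subgroup.pow_index_mem ((center G).subgroupOf (zpowers g ⊔ center G)) (⟨g, mem_sup_left (mem_zpowers g)⟩ : ↥(zpowers g ⊔ center G))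
    rw [show ((center G).subgroupOf (zpowers g ⊔ center G)).index = p ^ l from hl] at h1
    have h2 : g ^ p ^ l ∈ center G := h1
    rw [← E_one hmc, pow_mem_E hp2 hG hmc, mul_one] at h2
    exact h2
  · intro h
    have hcyc := derived_cyclic hmc
    let T := {d : ↥(commutator G) // d ^ (p ^ k) = 1}
    have hT : Nat.card T ≤ p ^ k := by
      classical
      haveI : Fintype ↥(commutator G) := Fintype.ofFinite _
      have := IsCyclic.card_pow_eq_one_le (α := ↥(commutator G)) (pow_pos hp.out.pos k)
      rw [Nat.card_eq_fintype_card, Fintype.card_subtype]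
      exact this
    refine le_trans ?_ hT
    rw [index_eq_card]
    refine Nat.card_le_card_of_injective (fun q : G ⧸ centralizer ({g} : Set G) =>
      (⟨⟨⁅g, q.out⁆, comm_mem _ _⟩, ?_⟩ : T)) ?_
    · apply Subtype.ext
      exact h _
    · intro q q' h
      have h1 : ⁅g, q.out⁆ = ⁅g, q'.out⁆ := congrArg (fun z : T => ((z : ↥(commutator G)) : G)) h
      rw [← QuotientGroup.out_eq' q, ← QuotientGroup.out_eq' q']
      apply QuotientGroup.eq.2
      rw [mem_centralizer_singleton_iff]
      set y := q.out with hy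
      set y' := q'.out with hy'
      rw [commutatorElement_def, commutatorElement_def] at h1
      have h2 : y * g⁻¹ * y⁻¹ = y' * g⁻¹ * y'⁻¹ := by
        have : g * (y * g⁻¹ * y⁻¹) = g * (y' * g⁻¹ * y'⁻¹) := by
          rw [← mul_assoc, ← mul_assoc, ← mul_assoc, ← mul_assoc, h1]
        exact mul_left_cancel this
      have h3 : y * g * y⁻¹ = y' * g * y'⁻¹ := by
        have := congrArg (fun z : G => z⁻¹) h2
        simpa [mul_assoc] using this
      calc y⁻¹ * y' * g = y⁻¹ * (y' * g * y'⁻¹) * y' := by group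
        _ = y⁻¹ * (y * g * y⁻¹) * y' := by rw [h3]
        _ = g * (y⁻¹ * y') := by group

/-- `|G||Z(G)| = |G:G'|²` -/
theorem card_mul_center (hp2 : p ≠ 2) (hG : IsPGroup p G) (hmc : IsMetacyclic G) :
    Nat.card G * Nat.card ↥(center G) = (commutator G).index ^ 2 := by
  have h1 := (center G).index_mul_card
  rw [index_center hp2 hG hmc] at h1
  have h2 := (commutator G).index_mul_card
  have h3 : 0 < Nat.card ↥(commutator G) ^ 2 := by have := Nat.card_pos (α := ↥(commutator G)); positivity
  apply Nat.eq_of_mul_eq_mul_right h3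
  calc Nat.card G * Nat.card ↥(center G) * Nat.card ↥(commutator G) ^ 2 = Nat.card G * (Nat.card ↥(commutator G) ^ 2 * Nat.card ↥(center G)) := by ring
    _ = Nat.card G * Nat.card G := by rw [h1]
    _ = ((commutator G).index * Nat.card ↥(commutator G)) * ((commutator G).index * Nat.card ↥(commutator G)) := by rw [h2]
    _ = _ := by ring

theorem le_centralizer_of_comm {A : Subgroup G} (hA : IsMulCommutative ↥A) : A ≤ centralizer (A : Set G) := by
  intro x hx
  rw [mem_centralizer_iff]
  intro y hy
  exact congrArg Subtype.val (mul_comm' (⟨y, hy⟩ : ↥A) ⟨x, hx⟩)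

theorem comm_card_le (hp2 : p ≠ 2) (hG : IsPGroup p G) (hmc : IsMetacyclic G) {A : Subgroup G} (hA : IsMulCommutative ↥A) :
    Nat.card ↥A ≤ (commutator G).index := by
  have h1 := cent_le hp2 hG hmc _ A ⊤ le_top le_rfl
  rw [Subgroup.card_top, coe_top, centralizer_univ, card_mul_center hp2 hG hmc] at h1
  have h2 : Nat.card ↥A ≤ Nat.card ↥(centralizer (A : Set G)) := Subgroup.card_le_of_le (le_centralizer_of_comm hA)
  have h3 : Nat.card ↥A ^ 2 ≤ (commutator G).index ^ 2 := by
    refine le_trans ?_ h1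
    rw [sq]
    exact Nat.mul_le_mul_right _ h2
  exact (Nat.pow_le_pow_iff_left two_ne_zero).1 h3

theorem card_derived_pos (hG : IsPGroup p G) (hna : ¬ IsMulCommutative G) :
    ∃ n, n ≠ 0 ∧ Nat.card ↥(commutator G) = p ^ n := by
  obtain ⟨n, hn⟩ := (hG.to_subgroup (commutator G)).exists_card_eq
  refine ⟨n, ?_, hn⟩
  rintro rfl
  apply hna
  rw [pow_zero, Subgroup.card_eq_one] at hn
  refine ⟨⟨fun x y => ?_⟩⟩
  have := comm_mem x y
  rw [hn, mem_bot, commutatorElement_eq_one_iff_mul_comm] at this
  exact this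

/-- maximal subgroups -/
theorem derived_max (hp2 : p ≠ 2) (hG : IsPGroup p G) (hmc : IsMetacyclic G) (hna : ¬ IsMulCommutative G)
    {M : Subgroup G} (hM : Nat.card G = p * Nat.card ↥M) :
    Nat.card ↥(commutator G) = p * Nat.card ↥⁅M, M⁆ := by
  obtain ⟨n, hn0, hn⟩ := card_derived_pos hG hna
  have hMtop : Nat.card ↥(⊤ : Subgroup G) = p * Nat.card ↥M := by rw [Subgroup.card_top, hM]
  have hMpos : 0 < Nat.card ↥M := Nat.card_pos
  have hMi : M.index = p := by
    have := M.index_mul_card
    rw [hM] at this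
    exact Nat.eq_of_mul_eq_mul_right hMpos this
  have hMn : M.Normal := by
    obtain ⟨m, hm⟩ := hG.exists_card_eq
    apply Subgroup.normal_of_index_eq_minFac_card
    have hm0 : m ≠ 0 := by
      rintro rfl
      rw [pow_zero] at hm
      rw [hm] at hM
      have := hp.out.two_le
      nlinarith
    rw [hMi, hm, hp.out.pow_minFac hm0]
  have hZE : center G ≤ M := by
    rw [← E_one hmc]
    refine (E_mono hmc (one_dvd (p ^ (n - 1)))).trans ?_
    rw [← closure_pow hp2 hG hmc hn (by omega : 1 ≤ n), Subgroup.closure_le]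
    rintro x ⟨y, rfl⟩
    have := Subgroup.pow_index_mem M y
    rw [hMi] at this
    rw [pow_one]; exact this
  have hC : centralizer (M : Set G) ≤ M := by
    intro x hx
    by_contra hxM
    have htop : M ⊔ zpowers x = ⊤ := by
      have h1 : M.relIndex (M ⊔ zpowers x) ∣ p := by rw [← hMi]; exact Subgroup.relIndex_dvd_index_of_normal _ _
      rcases (Nat.dvd_prime hp.out).1 h1 with h4 | h4
      · exfalso
        rw [Subgroup.relIndex_eq_one] at h4
        exact hxM (h4 (mem_sup_right (mem_zpowers x)))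
      · have h5 := relIndex_card (R := M) (S := M ⊔ zpowers x) le_sup_left
        rw [h4, ← hM] at h5
        exact Subgroup.eq_top_of_card_eq _ h5.symm
    apply hxM
    apply hZE
    rw [mem_center_iff]
    have h1 : M ⊔ zpowers x ≤ centralizer ({x} : Set G) := by
      rw [sup_le_iff, zpowers_le]
      constructor
      · intro m hm
        rw [mem_centralizer_singleton_iff]
        exact (mem_centralizer_iff.1 hx m hm)
      · rw [mem_centralizer_singleton_iff]
    intro g
    exact mem_centralizer_singleton_iff.1 (h1 (htop ▸ mem_top g))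
  have h1 := duality hp2 hG hmc hZE
  have hcardC : Nat.card ↥(centralizer (M : Set G)) = p * Nat.card ↥(center G) := by
    apply Nat.eq_of_mul_eq_mul_left hMpos
    rw [h1, hM]; ring
  have hZM : Nat.card ↥(center ↥M) = p * Nat.card ↥(center G) := by
    rw [← hcardC]
    have h2 : (center ↥M).map M.subtype = centralizer (M : Set G) := by
      ext x
      constructor
      · rintro ⟨z, hz, rfl⟩
        rw [mem_centralizer_iff]
        intro m hm
        exact congrArg Subtype.val (mem_center_iff.1 hz ⟨m, hm⟩)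
      · intro hx
        refine ⟨⟨x, hC hx⟩, ?_, rfl⟩
        rw [SetLike.mem_coe, mem_center_iff]
        intro m
        exact Subtype.ext (mem_centralizer_iff.1 hx m m.2)
    rw [← h2, Subgroup.card_map_of_injective M.subtype_injective]
  have h3 := (center ↥M).index_mul_card
  rw [index_center hp2 (hG.to_subgroup M) (subgroup hmc M), hZM] at h3
  have h4 := (center G).index_mul_card
  rw [index_center hp2 hG hmc, hM, ← h3] at h4
  have h5 : Nat.card ↥⁅M, M⁆ = Nat.card ↥(commutator ↥M) := by
    rw [← Subgroup.map_subtype_commutator, Subgroup.card_map_of_injective M.subtype_injective]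
  rw [h5]
  have hZpos : 0 < Nat.card ↥(center G) := Nat.card_pos
  have h6 : Nat.card ↥(commutator G) ^ 2 = (p * Nat.card ↥(commutator ↥M)) ^ 2 := by
    apply Nat.eq_of_mul_eq_mul_right hZpos
    rw [h4]; ring
  exact Nat.pow_left_injective two_ne_zero h6

theorem derived_step (hp2 : p ≠ 2) (hG : IsPGroup p G) (hmc : IsMetacyclic G) {L L1 : Subgroup G} (hle : L ≤ L1)
    (hc : Nat.card ↥L1 = p * Nat.card ↥L) (hna : ¬ IsMulCommutative ↥L1) :
    Nat.card ↥⁅L1, L1⁆ = p * Nat.card ↥⁅L, L⁆ := by
  have h1 := derived_max hp2 (hG.to_subgroup L1) (subgroup hmc L1) hna (M := L.subgroupOf L1)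
    (by rw [Nat.card_congr (Subgroup.subgroupOfEquivOfLe hle).toEquiv, hc])
  have h2 : (⁅L.subgroupOf L1, L.subgroupOf L1⁆ : Subgroup ↥L1).map L1.subtype = ⁅L, L⁆ := by
    rw [Subgroup.map_commutator, Subgroup.subgroupOf_map_subtype, inf_eq_left.2 hle]
  rw [← Subgroup.map_subtype_commutator, Subgroup.card_map_of_injective L1.subtype_injective, h1, ← h2,
    Subgroup.card_map_of_injective L1.subtype_injective]

theorem noncomm_mono {L L1 : Subgroup G} (hle : L ≤ L1) (hna : ¬ IsMulCommutative ↥L) : ¬ IsMulCommutative ↥L1 := by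
  intro h
  apply hna
  refine ⟨⟨fun x y => ?_⟩⟩
  apply Subtype.ext
  show (x : G) * y = y * x
  exact congrArg (fun z : ↥L1 => (z : G)) (mul_comm' (⟨x, hle x.2⟩ : ↥L1) ⟨y, hle y.2⟩)

theorem ab_eq (hp2 : p ≠ 2) (hG : IsPGroup p G) (hmc : IsMetacyclic G) : ∀ (m : ℕ) (L : Subgroup G),
    L.index ≤ m → ¬ IsMulCommutative ↥L → Nat.card ↥L = (commutator G).index * Nat.card ↥⁅L, L⁆ := by
  intro m
  induction m with
  | zero =>
    intro L h1 h2
    have := L.index_mul_card
    rw [Nat.le_zero.1 h1, zero_mul] at this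
    exact absurd this.symm Nat.card_pos.ne'
  | succ m ih =>
    intro L hm hna
    rcases (le_top : L ≤ ⊤).eq_or_lt with rfl | hlt
    · rw [Subgroup.card_top, ← (commutator G).index_mul_card, _root_.commutator_def]
    · obtain ⟨R1, h1, h2, h3⟩ := step hG hlt
      have hna1 := noncomm_mono h2 hna
      have h4 := derived_step hp2 hG hmc h2 h3 hna1
      have h5 : R1.index ≤ m := by
        have h6 := R1.index_mul_card
        have h7 := L.index_mul_card
        rw [← h6, h3] at h7
        have h8 : 0 < Nat.card ↥L := Nat.card_pos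
        have h9 : L.index = R1.index * p := by
          apply Nat.eq_of_mul_eq_mul_right h8
          rw [h7]; ring
        have h10 : 0 < R1.index := by
          rcases Nat.eq_zero_or_pos R1.index with h | h
          · rw [h, zero_mul] at h6; exact absurd h6.symm Nat.card_pos.ne'
          · exact h
        have := hp.out.two_le
        nlinarith
      have h6 := ih R1 h5 hna1
      rw [h4, h3] at h6
      apply Nat.eq_of_mul_eq_mul_left hp.out.pos
      rw [h6]; ring

theorem nonab_card (hp2 : p ≠ 2) (hG : IsPGroup p G) (hmc : IsMetacyclic G) {L : Subgroup G} (hna : ¬ IsMulCommutative ↥L) :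
    Nat.card ↥L = (commutator G).index * Nat.card ↥⁅L, L⁆ := ab_eq hp2 hG hmc _ L le_rfl hna

theorem comm_bot {L : Subgroup G} (h : IsMulCommutative ↥L) : ⁅L, L⁆ = ⊥ := by
  rw [Subgroup.commutator_eq_bot_iff_le_centralizer]
  exact le_centralizer_of_comm h

theorem nonab_card_lt (hG : IsPGroup p G) {L : Subgroup G} (hna : ¬ IsMulCommutative ↥L) : 1 < Nat.card ↥⁅L, L⁆ := by
  by_contra h
  have h1 : Nat.card ↥⁅L, L⁆ = 1 := le_antisymm (not_lt.1 h) Nat.card_pos
  rw [Subgroup.card_eq_one, Subgroup.commutator_eq_bot_iff_le_centralizer] at h1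
  apply hna
  refine ⟨⟨fun x y => ?_⟩⟩
  exact Subtype.ext (mem_centralizer_iff.1 (h1 y.2) x x.2)

theorem comm_iff (hp2 : p ≠ 2) (hG : IsPGroup p G) (hmc : IsMetacyclic G) (L : Subgroup G) :
    IsMulCommutative ↥L ↔ Nat.card ↥L ≤ (commutator G).index := by
  constructor
  · exact fun h => comm_card_le hp2 hG hmc h
  · intro h
    by_contra hna
    have h1 := nonab_card hp2 hG hmc hna
    have h2 := nonab_card_lt hG hna
    have h3 : 0 < (commutator G).index := Nat.pos_of_ne_zero (Subgroup.FiniteIndex.index_ne_zero)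
    nlinarith

theorem maxcomm_iff (hp2 : p ≠ 2) (hG : IsPGroup p G) (hmc : IsMetacyclic G) (L : Subgroup G) :
    Maximal (fun K : Subgroup G => IsMulCommutative ↥K) L ↔ Nat.card ↥L = (commutator G).index := by
  constructor
  · rintro ⟨h1, h2⟩
    rcases (le_top : L ≤ ⊤).eq_or_lt with rfl | hlt
    · have h3 : commutator G = ⊥ := by rw [_root_.commutator_def]; exact comm_bot h1
      rw [h3, Subgroup.index_bot, Subgroup.card_top]
    · obtain ⟨R1, h3, h4, h5⟩ := step hG hlt
      have hna : ¬ IsMulCommutative ↥R1 := by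
        intro h6
        have h7 := h2 h6 h4
        have h8 := Subgroup.card_le_of_le h7
        rw [h5] at h8
        have := hp.out.two_le
        have := Nat.card_pos (α := ↥L)
        nlinarith
      have h6 := derived_step hp2 hG hmc h4 h5 hna
      have h7 := nonab_card hp2 hG hmc hna
      rw [h6, h5, comm_bot h1, Subgroup.card_bot, mul_one] at h7
      apply Nat.eq_of_mul_eq_mul_left hp.out.pos
      rw [h7]; ring
  · intro h
    refine ⟨(comm_iff hp2 hG hmc L).2 h.le, fun K hK hLK => ?_⟩
    have h1 := comm_card_le hp2 hG hmc hK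
    rw [← h] at h1
    exact (Subgroup.eq_of_le_of_card_ge hLK h1).ge

end Cfsg.Agent.H3.Meta
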