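import Mathlib
import Cfsg.Prelude
import Cfsg.Agent.H1.Basic

set_option autoImplicit false
set_option linter.all false
open Cfsg
open Subgroup

namespace Cfsg.Agent.H3
universe u

theorem one_add_pow_exp (y : ℤ) (j : ℕ) : ∃ q : ℤ, (1 + y) ^ j = 1 + j * y + y ^ 2 * q := by
  induction j with
  | zero => exact ⟨0, by simp⟩
  | succ j ih =>
    obtain ⟨q, hq⟩ := ih
    refine ⟨j + q * (1 + y), ?_⟩
    rw [pow_succ, hq]; push_cast; ring

theorem sum_pow_cong {p e : ℕ} (hp : p.Prime) (hp2 : p ≠ 2) (he : 1 ≤ e) {σ : ℤ} (h : ((p : ℤ) ^ e) ∣ σ - 1) :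
    ((p : ℤ) ^ (e + 1)) ∣ ∑ j ∈ Finset.range p, σ ^ j - p := by
  obtain ⟨w, hw⟩ := h
  obtain ⟨y, hy⟩ : ∃ y, y = σ - 1 := ⟨_, rfl⟩
  have hσ : σ = 1 + y := by rw [hy]; ring
  choose q hq using one_add_pow_exp y
  have h1 : ∑ j ∈ Finset.range p, σ ^ j = p + y * (∑ j ∈ Finset.range p, (j : ℤ)) + y ^ 2 * ∑ j ∈ Finset.range p, q j := by
    rw [hσ, Finset.sum_congr rfl (fun j _ => hq j), Finset.sum_add_distrib, Finset.sum_add_distrib, Finset.mul_sum, Finset.mul_sum]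
    simp only [Finset.sum_const, Finset.card_range, nsmul_eq_mul, mul_one]
    congr 2
    exact Finset.sum_congr rfl (fun j _ => mul_comm _ _)
  have h2 : (p : ℤ) ∣ ∑ j ∈ Finset.range p, (j : ℤ) := by
    have h3 : ((∑ j ∈ Finset.range p, j : ℕ) : ℤ) = ∑ j ∈ Finset.range p, (j : ℤ) := by push_cast; rfl
    rw [← h3]
    have h4 := Finset.sum_range_id_mul_two p
    have h5 : p ∣ (∑ j ∈ Finset.range p, j) * 2 := by rw [h4]; exact Dvd.intro _ rfl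
    have h6 : p ∣ ∑ j ∈ Finset.range p, j := by
      rcases hp.dvd_mul.1 h5 with h | h
      · exact h
      · exact absurd ((Nat.prime_dvd_prime_iff_eq hp Nat.prime_two).1 h) hp2
    exact Int.natCast_dvd_natCast.2 h6
  rw [h1]
  have h3 : (p : ℤ) + y * (∑ j ∈ Finset.range p, (j : ℤ)) + y ^ 2 * (∑ j ∈ Finset.range p, q j) - p =
      y * (∑ j ∈ Finset.range p, (j : ℤ)) + y ^ 2 * ∑ j ∈ Finset.range p, q j := by ring
  rw [h3]
  have hyd : ((p : ℤ) ^ e) ∣ y := ⟨w, by rw [hy, hw]⟩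
  apply dvd_add
  · rw [pow_succ]; exact mul_dvd_mul hyd h2
  · apply Dvd.dvd.mul_right
    have h4 : ((p : ℤ) ^ (e + 1)) ∣ (p : ℤ) ^ (e * 2) := pow_dvd_pow _ (by omega)
    refine h4.trans ?_
    rw [pow_mul]
    exact pow_dvd_pow_of_dvd hyd 2

theorem geom_cong {p e : ℕ} (hp : p.Prime) (hp2 : p ≠ 2) (he : 1 ≤ e) {ρ : ℤ} (h : ((p : ℤ) ^ e) ∣ ρ - 1) (s : ℕ) :
    ((p : ℤ) ^ (s + e)) ∣ ∑ k ∈ Finset.range (p ^ s), ρ ^ k - p ^ s := by
  induction s with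
  | zero => simp
  | succ s ih =>
    obtain ⟨m, hm⟩ := ih
    have hσ : ((p : ℤ) ^ e) ∣ ρ ^ p ^ s - 1 := by
      have := sub_dvd_pow_sub_pow ρ 1 (p ^ s)
      rw [one_pow] at this
      exact h.trans this
    obtain ⟨m', hm'⟩ := sum_pow_cong hp hp2 he hσ
    have h1 : ∑ k ∈ Finset.range (p ^ (s + 1)), ρ ^ k = (∑ k ∈ Finset.range (p ^ s), ρ ^ k) * ∑ j ∈ Finset.range p, (ρ ^ p ^ s) ^ j := by
      by_cases hρ : ρ = 1
      · rw [hρ]; simp [pow_succ]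
      · have h2 := geom_sum_mul ρ (p ^ (s + 1))
        have h3 := geom_sum_mul ρ (p ^ s)
        have h4 := geom_sum_mul (ρ ^ p ^ s) p
        have h5 : ρ - 1 ≠ 0 := sub_ne_zero.2 hρ
        apply mul_right_cancel₀ h5
        rw [h2, mul_right_comm, h3, mul_comm, h4, ← pow_mul, pow_succ]
    have e1 : ∑ k ∈ Finset.range (p ^ s), ρ ^ k = (p : ℤ) ^ s + (p : ℤ) ^ (s + e) * m := by rw [← hm]; ring
    have e2 : ∑ j ∈ Finset.range p, (ρ ^ p ^ s) ^ j = (p : ℤ) + (p : ℤ) ^ (e + 1) * m' := by rw [← hm']; ring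
    rw [h1, e1, e2]
    refine ⟨m + m' + (p : ℤ) ^ e * m * m', ?_⟩
    rw [pow_succ, pow_add, pow_add, pow_add]
    ring

theorem conj_pow_prod {G : Type*} [Group G] {a c : G} {ρ : ℤ} (h : c * a * c⁻¹ = a ^ ρ) (i : ℤ) (n : ℕ) :
    (a ^ i * c) ^ n = a ^ (i * ∑ k ∈ Finset.range n, ρ ^ k) * c ^ n := by
  have hz : ∀ j : ℤ, c * a ^ j * c⁻¹ = a ^ (ρ * j) := by
    intro j
    rw [← conj_zpow, h, ← zpow_mul]
  induction n with
  | zero => simp
  | succ n ih =>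
    rw [pow_succ', ih]
    have e1 : a ^ i * c * (a ^ (i * ∑ k ∈ Finset.range n, ρ ^ k) * c ^ n) = a ^ i * (c * a ^ (i * ∑ k ∈ Finset.range n, ρ ^ k) * c⁻¹) * (c * c ^ n) := by group
    rw [e1, hz, ← pow_succ', ← zpow_add]
    congr 2
    rw [Finset.sum_range_succ']
    simp only [pow_succ, pow_zero, ← Finset.sum_mul]
    ring

end Cfsg.Agent.H3
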