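import Mathlib
import Cfsg.Agent.H3.MinNormal

set_option autoImplicit false

namespace Cfsg.Agent.H3

open Subgroup

/-- A nonabelian minimal normal subgroup `N` of a finite group is simple or has a proper simple normal factor `T`. -/
theorem simple_or_factor {G : Type*} [Group G] [Finite G] (N : Subgroup G) [hN : N.Normal] (hNb : N ≠ ⊥)
    (hmin : ∀ L : Subgroup G, L.Normal → L ≤ N → L = ⊥ ∨ L = N) (hab : ¬ IsMulCommutative N) :
    IsSimpleGroup N ∨ ∃ T : Subgroup G, T ≤ N ∧ T ≠ ⊥ ∧ T ≠ N ∧ (∀ n ∈ N, ∀ s ∈ T, n * s * n⁻¹ ∈ T) ∧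
      (∀ n ∈ N, ∃ u ∈ T, ∃ c ∈ N, (∀ s ∈ T, c * s = s * c) ∧ n = u * c) ∧
      (∀ s ∈ T, (∀ s' ∈ T, s * s' = s' * s) → s = 1) ∧
      (∀ g : G, (∀ s ∈ T, g * s * g⁻¹ ∈ T) ∨ (∀ s ∈ T, ∀ s' ∈ T, s * (g * s' * g⁻¹) = (g * s' * g⁻¹) * s)) ∧
      IsSimpleGroup T ∧ ¬ IsMulCommutative T := by
  rcases simple_or_split N hNb hmin hab with h | ⟨T, hTn, hTb, hTt, hTC, hTC2, hTmin⟩
  · exact Or.inl h
  right
  have memT : ∀ x : N, (x : G) ∈ T.map N.subtype ↔ x ∈ T := by
    intro x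
    constructor
    · rintro ⟨y, hy, hyx⟩
      have : y = x := Subtype.ext hyx
      rwa [← this]
    · intro hx; exact ⟨x, hx, rfl⟩
  set T' : Subgroup G := T.map N.subtype with hT'
  have hT'N : T' ≤ N := Subgroup.map_subtype_le _
  have hnorm : ∀ n ∈ N, ∀ s ∈ T', n * s * n⁻¹ ∈ T' := by
    rintro n hn _ ⟨s, hs, rfl⟩
    exact ⟨⟨n, hn⟩ * s * ⟨n, hn⟩⁻¹, hTn.conj_mem s hs _, rfl⟩
  have hdec : ∀ n ∈ N, ∃ u ∈ T', ∃ c ∈ N, (∀ s ∈ T', c * s = s * c) ∧ n = u * c := by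
    intro n hn
    have h1 : (⟨n, hn⟩ : N) ∈ T ⊔ Subgroup.centralizer (T : Set N) := by rw [hTC2]; trivial
    obtain ⟨u, hu, c, hc, huc⟩ := Subgroup.mem_sup_of_normal_left.mp h1
    refine ⟨u, ⟨u, hu, rfl⟩, c, c.2, ?_, (congrArg Subtype.val huc).symm⟩
    rintro _ ⟨s, hs, rfl⟩
    exact (congrArg Subtype.val (Subgroup.mem_centralizer_iff.mp hc s hs)).symm
  have hcen : ∀ s ∈ T', (∀ s' ∈ T', s * s' = s' * s) → s = 1 := by
    rintro _ ⟨s, hs, rfl⟩ hc
    have h1 : s ∈ T ⊓ Subgroup.centralizer (T : Set N) := by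
      refine ⟨hs, Subgroup.mem_centralizer_iff.mpr ?_⟩
      intro s' hs'
      exact Subtype.ext (hc s' ⟨s', hs', rfl⟩).symm
    rw [hTC, Subgroup.mem_bot] at h1
    rw [h1]; rfl
  have hT'b : T' ≠ ⊥ := by
    intro h
    rw [hT', Subgroup.map_eq_bot_iff_of_injective _ N.subtype_injective] at h
    exact hTb h
  refine ⟨T', hT'N, hT'b, ?_, hnorm, hdec, hcen, ?_, ?_, ?_⟩
  · intro h
    apply hTt
    rw [eq_top_iff]
    intro x _
    rw [← memT]
    show (x : G) ∈ T'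
    rw [h]; exact x.2
  · intro g
    let T1 : Subgroup N := T.map (MulAut.conjNormal (H := N) g).toMonoidHom
    have hT1n : T1.Normal := hTn.map _ (MulAut.conjNormal (H := N) g).surjective
    have hT1c : Nat.card T1 = Nat.card T := Subgroup.card_map_of_injective (MulAut.conjNormal (H := N) g).injective
    have hi : (T1 ⊓ T).Normal := Subgroup.normal_inf_normal _ _
    rcases hTmin (T1 ⊓ T) hi inf_le_right with h | h
    · right
      rintro _ ⟨s, hs, rfl⟩ _ ⟨s', hs', rfl⟩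
      have ht' : MulAut.conjNormal g s' ∈ T1 := Subgroup.mem_map_of_mem _ hs'
      have hd : Disjoint T1 T := disjoint_iff.mpr h
      have := Subgroup.commute_of_normal_of_disjoint T1 T hT1n hTn hd _ _ ht' hs
      have h5 := congrArg Subtype.val this.eq
      simp only [Subgroup.coe_mul, MulAut.conjNormal_apply] at h5
      exact h5.symm
    · left
      have h2 : T ≤ T1 := by rw [← h]; exact inf_le_left
      have h3 : T = T1 := Subgroup.eq_of_le_of_card_ge h2 hT1c.le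
      rintro _ ⟨s, hs, rfl⟩
      refine ⟨MulAut.conjNormal g s, ?_, by simp⟩
      rw [SetLike.mem_coe, h3]
      exact Subgroup.mem_map_of_mem _ hs
  · -- simplicity
    haveI : Nontrivial T' := (Subgroup.nontrivial_iff_ne_bot T').mpr hT'b
    refine ⟨fun L hL => ?_⟩
    let L1 : Subgroup N := (L.map T'.subtype).subgroupOf N
    have hL1n : L1.Normal := by
      refine ⟨fun x hx n => ?_⟩
      obtain ⟨l, hl, hlx⟩ := Subgroup.mem_subgroupOf.mp hx
      obtain ⟨u, hu, c, hc, hcc, hn⟩ := hdec n n.2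
      show (n : G) * x * (n : G)⁻¹ ∈ L.map T'.subtype
      have hlx' : (l : G) = x := hlx
      have e : (n : G) * x * (n : G)⁻¹ = u * l * u⁻¹ := by
        have := hcc l l.2
        rw [← hlx', hn]
        calc u * c * (l : G) * (u * c)⁻¹ = u * (c * l) * c⁻¹ * u⁻¹ := by group
          _ = u * (l * c) * c⁻¹ * u⁻¹ := by rw [this]
          _ = _ := by group
      rw [e]
      exact ⟨⟨u, hu⟩ * l * ⟨u, hu⟩⁻¹, hL.conj_mem l hl _, rfl⟩
    have hL1T : L1 ≤ T := by
      intro x hx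
      obtain ⟨l, hl, hlx⟩ := Subgroup.mem_subgroupOf.mp hx
      rw [← memT]
      have hlx' : (l : G) = x := hlx
      show (x : G) ∈ T'
      rw [← hlx']; exact l.2
    rcases hTmin L1 hL1n hL1T with h | h
    · left
      rw [eq_bot_iff]
      intro l hl
      have h1 : (⟨l, hT'N l.2⟩ : N) ∈ L1 := Subgroup.mem_subgroupOf.mpr ⟨l, hl, rfl⟩
      rw [h, Subgroup.mem_bot] at h1
      have h2 := congrArg Subtype.val h1
      exact Subtype.ext h2
    · right
      rw [eq_top_iff]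
      intro l _
      have h1 : (⟨l, hT'N l.2⟩ : N) ∈ L1 := by
        rw [h, ← memT]; exact l.2
      obtain ⟨l', hl', hll⟩ := Subgroup.mem_subgroupOf.mp h1
      have : l' = l := Subtype.ext hll
      rwa [← this]
  · intro hc
    apply hTb
    apply abelian_eq_bot_of_minimal N hmin hab T
    intro x hx y hy
    have h1 := mul_comm' (⟨x, ⟨x, hx, rfl⟩⟩ : T') ⟨y, ⟨y, hy, rfl⟩⟩
    have h2 := congrArg Subtype.val h1
    exact Subtype.ext h2

end Cfsg.Agent.H3
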