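import Mathlib
import Cfsg.Agent.L0.SZ
import Cfsg.Agent.L0.Coprime
set_option autoImplicit false
set_option linter.unusedVariables false
set_option linter.style.haveILetI false
/-! Permuting subgroups, Kegel's lemma. -/
open Subgroup Pointwise

namespace Cfsg.Agent.H3

theorem conj_mem_smul {G : Type*} [Group G] {H : Subgroup G} {g x : G} (hx : x ∈ H) : g * x * g⁻¹ ∈ MulAut.conj g • H := by
  rw [L0.mem_conj_smul]
  have e : g⁻¹ * (g * x * g⁻¹) * g = x := by group
  rw [e]; exact hx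

/-- `A` and `B` permute -/
def Perm {G : Type*} [Group G] (A B : Subgroup G) : Prop := ∀ a ∈ A, ∀ b ∈ B, ∃ a' ∈ A, ∃ b' ∈ B, b * a = a' * b'

theorem perm_iff {G : Type*} [Group G] (A B : Subgroup G) : (∃ S : Subgroup G, (S : Set G) = (A : Set G) * (B : Set G)) ↔ Perm A B := by
  constructor
  · rintro ⟨S, hS⟩ a ha b hb
    have h1 : a ∈ S := by
      have : a ∈ (S : Set G) := by rw [hS]; exact ⟨a, ha, 1, one_mem B, mul_one a⟩
      exact this
    have h2 : b ∈ S := by
      have : b ∈ (S : Set G) := by rw [hS]; exact ⟨1, one_mem A, b, hb, one_mul b⟩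
      exact this
    have h3 : b * a ∈ (S : Set G) := S.mul_mem h2 h1
    rw [hS] at h3
    obtain ⟨a', ha', b', hb', h⟩ := h3
    exact ⟨a', ha', b', hb', h.symm⟩
  · intro h
    refine ⟨{ carrier := (A : Set G) * (B : Set G), one_mem' := ⟨1, one_mem A, 1, one_mem B, mul_one 1⟩, mul_mem' := ?_, inv_mem' := ?_ }, rfl⟩
    · rintro _ _ ⟨a, ha, b, hb, rfl⟩ ⟨c, hc, d, hd, rfl⟩
      obtain ⟨a', ha', b', hb', e⟩ := h c hc b hb
      refine ⟨a * a', mul_mem ha ha', b' * d, mul_mem hb' hd, ?_⟩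
      show a * a' * (b' * d) = a * b * (c * d)
      calc a * a' * (b' * d) = a * (a' * b') * d := by group
        _ = a * b * (c * d) := by rw [← e]; group
    · rintro _ ⟨a, ha, b, hb, rfl⟩
      obtain ⟨a', ha', b', hb', e⟩ := h a⁻¹ (inv_mem ha) b⁻¹ (inv_mem hb)
      refine ⟨a', ha', b', hb', ?_⟩
      show a' * b' = (a * b)⁻¹
      rw [← e]; group

theorem eq_sup_of_coe {G : Type*} [Group G] {A B S : Subgroup G} (hS : (S : Set G) = (A : Set G) * (B : Set G)) : S = A ⊔ B := by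
  apply le_antisymm
  · intro x hx
    have : x ∈ (S : Set G) := hx
    rw [hS] at this
    obtain ⟨a, ha, b, hb, rfl⟩ := this
    exact Subgroup.mul_mem_sup ha hb
  · apply sup_le
    · intro a ha
      have : a ∈ (S : Set G) := by rw [hS]; exact ⟨a, ha, 1, one_mem B, mul_one a⟩
      exact this
    · intro b hb
      have : b ∈ (S : Set G) := by rw [hS]; exact ⟨1, one_mem A, b, hb, one_mul b⟩
      exact this

theorem Perm.mul_mem {G : Type*} [Group G] {A B : Subgroup G} (h : Perm A B) {x : G} (hx : x ∈ A ⊔ B) : ∃ a ∈ A, ∃ b ∈ B, a * b = x := by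
  obtain ⟨S, hS⟩ := (perm_iff A B).mpr h
  have h3 : x ∈ (S : Set G) := by rw [eq_sup_of_coe hS]; exact hx
  rw [hS] at h3
  exact h3

theorem perm_of_mul {G : Type*} [Group G] {A B : Subgroup G} (h : ∀ x ∈ A ⊔ B, ∃ a ∈ A, ∃ b ∈ B, a * b = x) : Perm A B := by
  intro a ha b hb
  obtain ⟨a', ha', b', hb', e⟩ := h (b * a) (Subgroup.mul_mem _ (Subgroup.mem_sup_right hb) (Subgroup.mem_sup_left ha))
  exact ⟨a', ha', b', hb', e.symm⟩

theorem Perm.swap {G : Type*} [Group G] {A B : Subgroup G} (h : Perm A B) : Perm B A := by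
  intro b hb a ha
  obtain ⟨a', ha', b', hb', e⟩ := h a⁻¹ (inv_mem ha) b⁻¹ (inv_mem hb)
  refine ⟨b'⁻¹, inv_mem hb', a'⁻¹, inv_mem ha', ?_⟩
  rw [← mul_inv_rev, ← e, mul_inv_rev, inv_inv, inv_inv]

theorem Perm.sup_left {G : Type*} [Group G] {A A' B : Subgroup G} (h : Perm A B) (h' : Perm A' B) : Perm (A ⊔ A') B := by
  let P : G → Prop := fun x => ∀ b ∈ B, ∃ a' ∈ A ⊔ A', ∃ b' ∈ B, b * x = a' * b'
  have hgen : ∀ y, (y ∈ A ∨ y ∈ A') → P y := by
    rintro y (hy | hy) b hb
    · obtain ⟨a', ha', b', hb', e⟩ := h y hy b hb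
      exact ⟨a', Subgroup.mem_sup_left ha', b', hb', e⟩
    · obtain ⟨a', ha', b', hb', e⟩ := h' y hy b hb
      exact ⟨a', Subgroup.mem_sup_right ha', b', hb', e⟩
  have hmul : ∀ y z, P y → P z → P (y * z) := by
    intro y z hy hz b hb
    obtain ⟨a1, ha1, b1, hb1, e1⟩ := hy b hb
    obtain ⟨a2, ha2, b2, hb2, e2⟩ := hz b1 hb1
    refine ⟨a1 * a2, Subgroup.mul_mem _ ha1 ha2, b2, hb2, ?_⟩
    rw [← mul_assoc, e1, mul_assoc, e2, mul_assoc]
  intro x hx
  rw [Subgroup.sup_eq_closure] at hx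
  have key : P x ∧ P x⁻¹ := by
    induction hx using Subgroup.closure_induction with
    | mem y hy =>
      rcases hy with hy | hy
      · exact ⟨hgen y (Or.inl hy), hgen y⁻¹ (Or.inl (inv_mem hy))⟩
      · exact ⟨hgen y (Or.inr hy), hgen y⁻¹ (Or.inr (inv_mem hy))⟩
    | one =>
      rw [inv_one]
      have : P 1 := fun b hb => ⟨1, one_mem _, b, hb, by group⟩
      exact ⟨this, this⟩
    | mul y z _ _ hy hz =>
      rw [mul_inv_rev]
      exact ⟨hmul _ _ hy.1 hz.1, hmul _ _ hz.2 hy.2⟩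
    | inv y _ hy => rw [inv_inv]; exact ⟨hy.2, hy.1⟩
  exact key.1

theorem Perm.conj {G : Type*} [Group G] {A B : Subgroup G} (h : Perm A B) (g : G) : Perm (MulAut.conj g • A) (MulAut.conj g • B) := by
  intro a ha b hb
  rw [L0.mem_conj_smul] at ha hb
  obtain ⟨a', ha', b', hb', e⟩ := h _ ha _ hb
  refine ⟨g * a' * g⁻¹, conj_mem_smul ha', g * b' * g⁻¹, conj_mem_smul hb', ?_⟩
  have e2 : b * a = g * (g⁻¹ * b * g * (g⁻¹ * a * g)) * g⁻¹ := by group
  rw [e2, e]; group

theorem conj_smul_sup {G : Type*} [Group G] (A B : Subgroup G) (g : G) : MulAut.conj g • (A ⊔ B) = MulAut.conj g • A ⊔ MulAut.conj g • B :=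
  Subgroup.smul_sup _ _ _

theorem conj_smul_eq_top {G : Type*} [Group G] {A : Subgroup G} {g : G} (h : MulAut.conj g • A = ⊤) : A = ⊤ := by
  rw [eq_top_iff]
  intro x _
  have : g * x * g⁻¹ ∈ MulAut.conj g • A := by rw [h]; trivial
  rw [L0.mem_conj_smul] at this
  have e : g⁻¹ * (g * x * g⁻¹) * g = x := by group
  rwa [e] at this

/-- Kegel's lemma -/
theorem kegel_perm {G : Type*} [Group G] [Finite G] (n : ℕ) : ∀ (A B : Subgroup G), 2 * Nat.card G - (Nat.card A + Nat.card B) = n →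
    A ≠ ⊥ → B ≠ ⊥ → (∀ x : G, Perm A (MulAut.conj x • B) ∧ A ⊔ MulAut.conj x • B ≠ ⊤) →
    ∃ N : Subgroup G, N.Normal ∧ N ≠ ⊤ ∧ (A ≤ N ∨ B ≤ N) := by
  induction n using Nat.strong_induction_on with
  | _ n ih =>
  intro A B hn hA hB h
  by_contra hno
  push Not at hno
  have hex : ∃ x y : G, y ∈ MulAut.conj x • B ∧ y ∉ normalizer (A : Set G) := by
    by_contra hne
    push Not at hne
    have hle : Subgroup.normalClosure (B : Set G) ≤ normalizer (A : Set G) := by
      rw [Subgroup.normalClosure, Subgroup.closure_le]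
      intro y hy
      obtain ⟨b, hb, hcj⟩ := Group.mem_conjugatesOfSet_iff.mp hy
      obtain ⟨g, hg⟩ := isConj_iff.mp hcj
      rw [← hg]
      exact hne g _ (conj_mem_smul hb)
    have htop : Subgroup.normalClosure (B : Set G) = ⊤ := by
      by_contra hN
      exact (hno _ inferInstance hN).2 Subgroup.subset_normalClosure
    rw [htop, top_le_iff, Subgroup.normalizer_eq_top_iff] at hle
    have hAt : A ≠ ⊤ := by
      intro hAt
      apply (h 1).2
      rw [hAt, top_sup_eq]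
    exact (hno A hle hAt).1 le_rfl
  obtain ⟨x, y, hy, hyA⟩ := hex
  set A' := A ⊔ MulAut.conj y • A with hA'
  have hlt : A < A' := by
    rw [hA', left_lt_sup]
    intro hle
    apply hyA
    apply Subgroup.mem_normalizer_fintype
    intro a ha
    exact hle (conj_mem_smul ha)
  have hcard : Nat.card A < Nat.card A' := by
    apply lt_of_le_of_ne (Nat.le_of_dvd Nat.card_pos (Subgroup.card_dvd_of_le hlt.le))
    intro he
    exact hlt.ne (Subgroup.eq_of_le_of_card_ge hlt.le he.ge)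
  have hperm : ∀ z : G, Perm A' (MulAut.conj z • B) := by
    intro z
    apply Perm.sup_left (h z).1
    have h1 := (h (y⁻¹ * z)).1.conj y
    rw [smul_smul, ← map_mul, mul_inv_cancel_left] at h1
    exact h1
  have hAxne : A' ⊔ MulAut.conj x • B ≠ ⊤ := by
    have : A' ⊔ MulAut.conj x • B = A ⊔ MulAut.conj x • B := by
      apply le_antisymm
      · refine sup_le (sup_le le_sup_left ?_) le_sup_right
        intro a ha
        rw [L0.mem_conj_smul] at ha
        have hy' : y ∈ A ⊔ MulAut.conj x • B := Subgroup.mem_sup_right hy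
        have := mul_mem (mul_mem hy' (Subgroup.mem_sup_left (T := MulAut.conj x • B) ha)) (inv_mem hy')
        have e : y * (y⁻¹ * a * y) * y⁻¹ = a := by group
        rwa [e] at this
      · exact sup_le_sup_right le_sup_left _
    rw [this]; exact (h x).2
  have hne : ∀ z : G, A' ⊔ MulAut.conj z • B ≠ ⊤ := by
    intro z hz
    apply hAxne
    -- u = z x⁻¹
    have hmem : (z * x⁻¹)⁻¹ ∈ A' ⊔ MulAut.conj z • B := by rw [hz]; trivial
    obtain ⟨a, ha, b, hb, hab⟩ := (hperm z).mul_mem hmem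
    rw [L0.mem_conj_smul] at hb
    have hb' : x * (z⁻¹ * b * z) * x⁻¹ ∈ MulAut.conj x • B := conj_mem_smul hb
    have hu : z * x⁻¹ = a⁻¹ * (x * (z⁻¹ * b * z) * x⁻¹)⁻¹ := by
      have h1 : b = a⁻¹ * (z * x⁻¹)⁻¹ := by rw [← hab]; group
      rw [h1]; group
    have h2 : MulAut.conj z • B = MulAut.conj a⁻¹ • (MulAut.conj x • B) := by
      have h3 : MulAut.conj z • B = MulAut.conj (z * x⁻¹) • (MulAut.conj x • B) := by
        rw [smul_smul, ← map_mul, inv_mul_cancel_right]
      rw [h3, hu, map_mul, mul_smul]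
      congr 1
      exact L0.mem_normalizer_conj.mp (Subgroup.le_normalizer (inv_mem hb'))
    have h4 : A' = MulAut.conj a⁻¹ • A' := (L0.mem_normalizer_conj.mp (Subgroup.le_normalizer (inv_mem ha))).symm
    have h5 : MulAut.conj a⁻¹ • (A' ⊔ MulAut.conj x • B) = ⊤ := by
      rw [conj_smul_sup, ← h4, ← h2, hz]
    exact conj_smul_eq_top h5
  have hA'ne : A' ≠ ⊥ := by
    intro he
    rw [he] at hlt
    exact not_lt_bot hlt
  have hc1 : Nat.card A' ≤ Nat.card G := Subgroup.card_le_card_group A'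
  have hc2 : Nat.card B ≤ Nat.card G := Subgroup.card_le_card_group B
  obtain ⟨N, hN, hNt, hAN⟩ := ih (2 * Nat.card G - (Nat.card A' + Nat.card B)) (by omega) A' B rfl hA'ne hB (fun z => ⟨hperm z, hne z⟩)
  rcases hAN with h1 | h1
  · exact (hno N hN hNt).1 (hlt.le.trans h1)
  · exact (hno N hN hNt).2 h1

end Cfsg.Agent.H3
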