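import Mathlib
import Cfsg.Agent.H3.Schmidt
import Cfsg.Agent.H3.Omega
import Cfsg.Agent.H3.Perm
import Cfsg.Agent.H3.SysN
set_option autoImplicit false
set_option linter.unusedVariables false
set_option linter.style.haveILetI false
/-! Nilpotent Hall subgroups. -/
open Subgroup Pointwise

namespace Cfsg.Agent.H3

universe u

/-- splitting off the `q`-part of a nilpotent subgroup -/
theorem nil_split {G : Type*} [Group G] [Finite G] (H : Subgroup G) (hH : Group.IsNilpotent H) (q : ℕ) [hq : Fact q.Prime] :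
    ∃ R : Subgroup G, R ≤ H ∧ H ≤ normalizer (R : Set G) ∧ (Nat.card R).Coprime q ∧ (∃ k, Nat.card H = Nat.card R * q ^ k) ∧
      (∀ Q : Subgroup G, Q ≤ H → IsPGroup q Q → R ≤ centralizer (Q : Set G)) ∧ ∀ x ∈ H, (orderOf x).Coprime q → x ∈ R := by
  obtain ⟨N, hN, hNc, k, hk⟩ := H1.hasNormalPComplement_iff.mp (H1.npc_of_isNilpotent (p := q) hH)
  refine ⟨N.map H.subtype, Subgroup.map_subtype_le _, ?_, ?_, ⟨k, ?_⟩, ?_, ?_⟩
  · intro h hh
    apply Subgroup.mem_normalizer_fintype
    rintro _ ⟨n, hn, rfl⟩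
    exact ⟨⟨h, hh⟩ * n * ⟨h, hh⟩⁻¹, hN.conj_mem n hn _, rfl⟩
  · rw [Subgroup.card_map_of_injective H.subtype_injective]; exact hNc
  · rw [Subgroup.card_map_of_injective H.subtype_injective, ← hk]; exact N.card_mul_index.symm
  · rintro Q hQH hQ _ ⟨n, hn, rfl⟩
    have hQ' : IsPGroup q (Q.subgroupOf H) := hQ.of_equiv (Subgroup.subgroupOfEquivOfLe hQH).symm
    obtain ⟨S, hS⟩ := hQ'.exists_le_sylow
    haveI := hH
    have hSn : (S : Subgroup H).Normal := inferInstance
    have hno : (orderOf n).Coprime q := by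
      apply Nat.Coprime.coprime_dvd_left _ hNc
      rw [← Subgroup.orderOf_mk n hn]; exact orderOf_dvd_natCard _
    have h1 := H1.centralizes_of_nilpotent hH S.2 (g := n) (by rw [Subgroup.normalizer_eq_top]; trivial) hno
    rw [Subgroup.mem_centralizer_iff] at h1 ⊢
    intro x hx
    exact congrArg Subtype.val (h1 ⟨x, hQH hx⟩ (hS hx))
  · intro x hx hxo
    refine ⟨⟨x, hx⟩, ?_, rfl⟩
    rw [SetLike.mem_coe, ← QuotientGroup.eq_one_iff, ← orderOf_eq_one_iff]
    have h1 : orderOf ((⟨x, hx⟩ : H) : H ⧸ N) ∣ orderOf x := by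
      have := orderOf_map_dvd (QuotientGroup.mk' N) ⟨x, hx⟩
      rwa [Subgroup.orderOf_mk] at this
    have h2 : orderOf ((⟨x, hx⟩ : H) : H ⧸ N) ∣ q ^ k := by rw [← hk]; exact orderOf_dvd_natCard _
    exact Nat.eq_one_of_dvd_coprimes (hxo.pow_right k) h1 h2

theorem isNilpotent_of_le {G : Type*} [Group G] {A B : Subgroup G} (hB : Group.IsNilpotent B) (h : A ≤ B) : Group.IsNilpotent A :=
  haveI := hB
  Group.nilpotent_of_mulEquiv (Subgroup.subgroupOfEquivOfLe h)

theorem isNilpotent_conj {G : Type*} [Group G] {H : Subgroup G} (hH : Group.IsNilpotent H) (x : G) :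
    Group.IsNilpotent (MulAut.conj x • H : Subgroup G) := by
  have e : H ≃* (MulAut.conj x • H : Subgroup G) := Subgroup.equivSMul (MulAut.conj x) H
  haveI := hH
  exact Group.nilpotent_of_mulEquiv e

/-- every `q`-subgroup lies in a conjugate of a Hall subgroup whose order is divisible by `q` -/
theorem le_conj_of_hall {G : Type*} [Group G] [Finite G] {q : ℕ} [hq : Fact q.Prime] {H Q : Subgroup G} (hHall : (Nat.card H).Coprime H.index)
    (hQ : IsPGroup q Q) (hqH : q ∣ Nat.card H) : ∃ x : G, Q ≤ MulAut.conj x • H := by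
  obtain ⟨S⟩ : Nonempty (Sylow q H) := inferInstance
  have hS : IsPGroup q ((S : Subgroup H).map H.subtype) := S.2.map _
  have hidx : ¬ q ∣ ((S : Subgroup H).map H.subtype).index := by
    intro hd
    have h1 : ((S : Subgroup H).map H.subtype).relIndex H * H.index = ((S : Subgroup H).map H.subtype).index :=
      Subgroup.relIndex_mul_index (Subgroup.map_subtype_le _)
    rw [← h1] at hd
    rcases hq.out.dvd_mul.mp hd with h2 | h2
    · apply S.not_dvd_index
      rw [Subgroup.relIndex, Subgroup.subgroupOf, Subgroup.comap_map_eq_self_of_injective H.subtype_injective] at h2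
      exact h2
    · exact hq.out.one_lt.ne' (Nat.eq_one_of_dvd_coprimes hHall hqH h2)
  let T : Sylow q G := hS.toSylow hidx
  obtain ⟨U, hU⟩ := hQ.exists_le_sylow
  obtain ⟨x, hx⟩ := MulAction.exists_smul_eq G T U
  refine ⟨x, hU.trans ?_⟩
  rw [← hx]
  intro y hy
  have hy' : y ∈ MulAut.conj x • ((S : Subgroup H).map H.subtype) := hy
  rw [L0.mem_conj_smul] at hy' ⊢
  exact Subgroup.map_subtype_le _ hy'

/-- Wielandt's theorem on nilpotent Hall subgroups -/
theorem wielandt_hall_aux (n : ℕ) : ∀ (G : Type u) [Group G] [Finite G] (H K : Subgroup G), Nat.card K = n → Group.IsNilpotent H →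
    (Nat.card H).Coprime H.index → (∀ p : ℕ, p.Prime → p ∣ Nat.card K → p ∣ Nat.card H) → ∃ x : G, K ≤ MulAut.conj x • H := by
  induction n using Nat.strong_induction_on with
  | _ n ih =>
  intro G _ _ H K hKn hH hHall hK
  by_cases hKb : K = ⊥
  · exact ⟨1, by rw [hKb]; exact bot_le⟩
  have hsub : ∀ L : Subgroup G, L ≤ K → L ≠ K → Group.IsNilpotent L := by
    intro L hLK hLne
    have hlt : Nat.card L < n := by
      rw [← hKn]
      apply lt_of_le_of_ne (Nat.le_of_dvd Nat.card_pos (Subgroup.card_dvd_of_le hLK))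
      intro he
      exact hLne (Subgroup.eq_of_le_of_card_ge hLK he.ge)
    obtain ⟨x, hx⟩ := ih _ hlt G H L rfl hH hHall (fun p hp hd => hK p hp (hd.trans (Subgroup.card_dvd_of_le hLK)))
    exact isNilpotent_of_le (isNilpotent_conj hH x) hx
  -- a normal Sylow subgroup
  obtain ⟨q, hq, Q', hQ'n, hQ'b⟩ : ∃ (q : ℕ) (_ : Fact q.Prime) (Q' : Sylow q K), (Q' : Subgroup K).Normal ∧ (Q' : Subgroup K) ≠ ⊥ := by
    by_cases hn : Group.IsNilpotent K
    · have h1 : Nat.card K ≠ 1 := fun h => hKb (Subgroup.card_eq_one.mp h)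
      obtain ⟨q, hq, hd⟩ := Nat.exists_prime_and_dvd h1
      haveI := Fact.mk hq
      obtain ⟨S⟩ : Nonempty (Sylow q K) := inferInstance
      haveI := hn
      exact ⟨q, ⟨hq⟩, S, inferInstance, S.ne_bot_of_dvd_card hd⟩
    · have hmin : Cfsg.IsMinimalNonNilpotent K := by
        refine ⟨hn, fun L hL => ?_⟩
        have h1 : L.map K.subtype ≠ K := by
          intro h
          apply hL
          apply Subgroup.map_injective K.subtype_injective
          rw [h, ← MonoidHom.range_eq_map, Subgroup.range_subtype]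
        have h2 := hsub _ (Subgroup.map_subtype_le L) h1
        haveI := h2
        exact Group.nilpotent_of_mulEquiv (Subgroup.equivMapOfInjective L K.subtype K.subtype_injective).symm
      obtain ⟨p, q, hp, hq, hpq, P, Q, -, hQn, -, hnc, -⟩ := schmidt_sylow hmin
      refine ⟨q, hq, Q, hQn, ?_⟩
      intro hb
      apply hnc
      rw [hb]
      intro g _
      rw [Subgroup.mem_centralizer_iff]
      rintro h hh
      rw [SetLike.mem_coe, Subgroup.mem_bot] at hh
      rw [hh]; group
  have hcopQ : (Nat.card (Q' : Subgroup K)).Coprime (Q' : Subgroup K).index := Q'.card_coprime_index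
  obtain ⟨L', hL'⟩ := Subgroup.exists_right_complement'_of_coprime hcopQ
  set Q := (Q' : Subgroup K).map K.subtype with hQdef
  set L := L'.map K.subtype with hLdef
  have hQp : IsPGroup q Q := Q'.2.map _
  have hQK : Q ≤ K := Subgroup.map_subtype_le _
  have hLK : L ≤ K := Subgroup.map_subtype_le _
  have hcardQ : Nat.card Q = Nat.card Q' := Subgroup.card_map_of_injective K.subtype_injective
  have hcardL : Nat.card L = Nat.card L' := Subgroup.card_map_of_injective K.subtype_injective
  have hcardK : Nat.card Q * Nat.card L = Nat.card K := by rw [hcardQ, hcardL]; exact hL'.card_mul_card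
  have hQL : K = Q ⊔ L := by
    rw [hQdef, hLdef, ← Subgroup.map_sup, hL'.sup_eq_top, ← MonoidHom.range_eq_map, Subgroup.range_subtype]
  have hKN : K ≤ normalizer (Q : Set G) := by
    intro k hk
    apply Subgroup.mem_normalizer_fintype
    rintro _ ⟨n, hn, rfl⟩
    exact ⟨⟨k, hk⟩ * n * ⟨k, hk⟩⁻¹, hQ'n.conj_mem n hn _, rfl⟩
  have hQne : Nat.card Q ≠ 1 := by
    rw [hcardQ]; exact fun h => hQ'b (Subgroup.card_eq_one.mp h)
  obtain ⟨j, hj⟩ := IsPGroup.iff_card.mp hQp
  have hj0 : j ≠ 0 := by rintro rfl; rw [pow_zero] at hj; exact hQne hj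
  have hqK : q ∣ Nat.card K := by rw [← hcardK, hj]; exact (dvd_pow_self q hj0).trans (Dvd.intro _ rfl)
  have hqH := hK q hq.out hqK
  have hLq : (Nat.card L).Coprime q := by
    rw [hcardL]
    have h1 : (Q' : Subgroup K).index = Nat.card L' := hL'.symm.index_eq_card
    rw [hcardQ.symm.trans hj] at hcopQ
    rw [← h1]
    exact (Nat.Coprime.coprime_dvd_left (dvd_pow_self q hj0) hcopQ).symm
  obtain ⟨x, hx⟩ := le_conj_of_hall hHall hQp hqH
  set H1 := MulAut.conj x • H with hH1
  have hH1n : Group.IsNilpotent H1 := isNilpotent_conj hH x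
  have hH1c : Nat.card H1 = Nat.card H := L0.card_conj_smul _ _
  have hH1i : H1.index = H.index := by
    apply Nat.eq_of_mul_eq_mul_left (Nat.card_pos (α := H))
    rw [H.card_mul_index, ← hH1c, H1.card_mul_index]
  obtain ⟨R, hRH, hHR, hRc, ⟨k, hk⟩, hRC, -⟩ := nil_split H1 hH1n q
  have hRN : R ≤ normalizer (Q : Set G) := (hRC Q hx hQp).trans (Subgroup.centralizer_le_normalizer _)
  have hLN : L ≤ normalizer (Q : Set G) := hLK.trans hKN
  set N := normalizer (Q : Set G) with hN
  have hcR : Nat.card (R.subgroupOf N) = Nat.card R := Nat.card_congr (Subgroup.subgroupOfEquivOfLe hRN).toEquiv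
  have hcL : Nat.card (L.subgroupOf N) = Nat.card L := Nat.card_congr (Subgroup.subgroupOfEquivOfLe hLN).toEquiv
  have hRi : R.index = q ^ k * H.index := by
    apply Nat.eq_of_mul_eq_mul_left (Nat.card_pos (α := R))
    rw [R.card_mul_index, ← H.card_mul_index, ← hH1c, hk]; ring
  have hRcop : (Nat.card R).Coprime R.index := by
    rw [hRi]
    refine Nat.Coprime.mul_right (hRc.pow_right k) (Nat.Coprime.coprime_dvd_left ?_ hHall)
    rw [← hH1c, hk]; exact Dvd.intro _ rfl
  have hRcop2 : (Nat.card (R.subgroupOf N)).Coprime (R.subgroupOf N).index := by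
    rw [hcR]
    apply Nat.Coprime.coprime_dvd_right _ hRcop
    exact Dvd.intro _ (Subgroup.relIndex_mul_index hRN)
  have hlt : Nat.card (L.subgroupOf N) < n := by
    rw [hcL, ← hKn, ← hcardK]
    have h1 : 0 < Nat.card L := Nat.card_pos
    have h2 : 0 < Nat.card Q := Nat.card_pos
    have h3 : 1 < Nat.card Q := by omega
    exact lt_mul_of_one_lt_left h1 h3
  obtain ⟨y, hy⟩ := ih _ hlt N (R.subgroupOf N) (L.subgroupOf N) rfl
    (by
      haveI := isNilpotent_of_le hH1n hRH
      exact Group.nilpotent_of_mulEquiv (Subgroup.subgroupOfEquivOfLe hRN).symm) hRcop2 (by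
    intro p hp hd
    rw [hcL] at hd
    rw [hcR]
    have h1 := hK p hp (hd.trans (Subgroup.card_dvd_of_le hLK))
    rw [← hH1c, hk] at h1
    rcases hp.dvd_mul.mp h1 with h2 | h2
    · exact h2
    · exfalso
      have h3 : p = q := (Nat.prime_dvd_prime_iff_eq hp hq.out).mp (hp.dvd_of_dvd_pow h2)
      have h4 := Nat.Coprime.coprime_dvd_left hd hLq
      rw [h3, Nat.coprime_self] at h4
      exact hq.out.one_lt.ne' h4)
  refine ⟨(y : G) * x, ?_⟩
  rw [map_mul, mul_smul, ← hH1]
  have hQy : Q ≤ MulAut.conj (y : G) • H1 := by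
    have h1 : MulAut.conj (y : G) • Q = Q := L0.mem_normalizer_conj.mp y.2
    intro a ha
    rw [← h1, L0.mem_conj_smul] at ha
    rw [L0.mem_conj_smul]
    exact hx ha
  have hLy : L ≤ MulAut.conj (y : G) • H1 := by
    intro a ha
    have h1 : (⟨a, hLN ha⟩ : N) ∈ MulAut.conj y • R.subgroupOf N := hy ha
    rw [L0.mem_conj_smul, Subgroup.mem_subgroupOf] at h1
    rw [L0.mem_conj_smul]
    exact hRH h1
  rw [hQL]
  exact sup_le hQy hLy

theorem wielandt_hall {G : Type*} [Group G] [Finite G] {H K : Subgroup G} (hH : Group.IsNilpotent H)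
    (hHall : (Nat.card H).Coprime H.index) (hK : ∀ p : ℕ, p.Prime → p ∣ Nat.card K → p ∣ Nat.card H) : ∃ x : G, K ≤ MulAut.conj x • H :=
  wielandt_hall_aux _ G H K rfl hH hHall hK

end Cfsg.Agent.H3
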