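import Mathlib
import Cfsg.Agent.H3.Basic

set_option autoImplicit false

namespace Cfsg.Agent.H3
open scoped commutatorElement

/-- a maximal subgroup of a finite solvable group has prime power index -/
theorem exists_index_eq_prime_pow {G : Type*} [Group G] [Finite G] (hG : Group.IsSolvable G) (M : Subgroup G)
    (hM : IsCoatom M) : ∃ p k : ℕ, p.Prime ∧ k ≠ 0 ∧ M.index = p ^ k := by
  classical
  -- the last term of the derived series not inside M
  obtain ⟨n, hn⟩ : ∃ n, derivedSeries G n = ⊥ := hG.solvable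
  have hex : ∃ n, derivedSeries G n ≤ M := ⟨n, by rw [hn]; exact bot_le⟩
  have hm := Nat.find_spec hex
  have hmin : ∀ k, k < Nat.find hex → ¬ derivedSeries G k ≤ M := fun k hk => Nat.find_min hex hk
  rcases Nat.eq_zero_or_pos (Nat.find hex) with h0 | h0
  · exfalso
    rw [h0, derivedSeries_zero, top_le_iff] at hm
    exact hM.1 hm
  obtain ⟨j, hj⟩ : ∃ j, Nat.find hex = j + 1 := ⟨Nat.find hex - 1, by omega⟩
  rw [hj] at hm hmin
  set A := derivedSeries G j with hA
  have hAM : ¬ A ≤ M := hmin j (by omega)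
  have hAn : A.Normal := derivedSeries_normal G j
  have hAA : ⁅A, A⁆ ≤ M := hm
  have hAA' : ⁅A, A⁆ ≤ A := Subgroup.commutator_le_left A A
  have hsup : A ⊔ M = ⊤ := by
    apply hM.2
    refine lt_of_le_of_ne le_sup_right ?_
    intro h
    apply hAM
    rw [h]; exact le_sup_left
  have hidx : M.index = M.relIndex A := by
    have e1 : A.relIndex (M ⊔ A) = A.relIndex M := Subgroup.relIndex_sup_right M A
    have e2 : A.relIndex M * Nat.card (A ⊓ M : Subgroup G) = Nat.card M := relIndex_mul_card_inf A M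
    have e3 : M.relIndex A * Nat.card (M ⊓ A : Subgroup G) = Nat.card A := relIndex_mul_card_inf M A
    have e4 : A.relIndex (M ⊔ A) * Nat.card A = Nat.card (M ⊔ A : Subgroup G) := relIndex_mul_card le_sup_right
    have e5 : Nat.card (M ⊔ A : Subgroup G) = Nat.card G := by
      rw [sup_comm, hsup]; exact Nat.card_congr Subgroup.topEquiv.toEquiv
    have e6 := Subgroup.index_mul_card M
    have hpos : 0 < Nat.card M := Nat.card_pos
    apply Nat.eq_of_mul_eq_mul_right hpos
    rw [e6, ← e5, ← e4, e1, ← e2, ← e3, inf_comm]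
    ring
  have hne1 : M.relIndex A ≠ 1 := by
    rw [Ne, Subgroup.relIndex_eq_one]; exact hAM
  obtain ⟨p, hp, hpd⟩ := Nat.exists_prime_and_dvd hne1
  have := Fact.mk hp
  -- A ∩ M is normal in G
  have hcomm : ∀ a ∈ A, ∀ b ∈ A, ⁅a, b⁆ ∈ M := fun a ha b hb => hAA (Subgroup.commutator_mem_commutator ha hb)
  have hfac : ∀ g : G, ∃ a ∈ A, ∃ m ∈ M, a * m = g := by
    intro g
    have : g ∈ A ⊔ M := by rw [hsup]; trivial
    rwa [Subgroup.mem_sup_of_normal_left] at this
  have hAM' : ∀ x ∈ A, x ∈ M → ∀ g : G, g * x * g⁻¹ ∈ M := by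
    intro x hxA hxM g
    obtain ⟨a, ha, m, hm', rfl⟩ := hfac g
    have h1 : m * x * m⁻¹ ∈ M := M.mul_mem (M.mul_mem hm' hxM) (M.inv_mem hm')
    have h2 : m * x * m⁻¹ ∈ A := hAn.conj_mem x hxA m
    have h3 := hcomm a ha _ h2
    have : a * m * x * (a * m)⁻¹ = ⁅a, m * x * m⁻¹⁆ * (m * x * m⁻¹) := by
      rw [commutatorElement_def]; group
    rw [this]
    exact M.mul_mem h3 h1
  -- B = {a ∈ A | a ^ p ∈ M}
  have hpowM : ∀ a ∈ A, ∀ b ∈ A, ∀ k : ℕ, ∃ c ∈ A, c ∈ M ∧ (a * b) ^ k = a ^ k * b ^ k * c := by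
    intro a ha b hb k
    induction k with
    | zero => exact ⟨1, A.one_mem, M.one_mem, by simp⟩
    | succ k ih =>
      obtain ⟨c, hcA, hcM, hc⟩ := ih
      -- (ab)^(k+1) = a^k b^k c a b
      refine ⟨(b ^ (k+1))⁻¹ * (a⁻¹ * (b ^ k) * a * (b ^ k)⁻¹) * b ^ (k + 1) * ((a * b)⁻¹ * c * (a * b)), ?_, ?_, ?_⟩
      · have h1 : a⁻¹ * (b ^ k) * a * (b ^ k)⁻¹ ∈ A := A.mul_mem (A.mul_mem (A.mul_mem (A.inv_mem ha) (A.pow_mem hb k)) ha) (A.inv_mem (A.pow_mem hb k))
        exact A.mul_mem (A.mul_mem (A.mul_mem (A.inv_mem (A.pow_mem hb _)) h1) (A.pow_mem hb _))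
          (A.mul_mem (A.mul_mem (A.inv_mem (A.mul_mem ha hb)) hcA) (A.mul_mem ha hb))
      · apply M.mul_mem
        · have h1 : a⁻¹ * (b ^ k) * a * (b ^ k)⁻¹ ∈ M := by
            have := hcomm _ (A.inv_mem ha) _ (A.pow_mem hb k)
            rw [commutatorElement_def, inv_inv] at this
            exact this
          have h2 : a⁻¹ * (b ^ k) * a * (b ^ k)⁻¹ ∈ A := A.mul_mem (A.mul_mem (A.mul_mem (A.inv_mem ha) (A.pow_mem hb k)) ha) (A.inv_mem (A.pow_mem hb k))
          have := hAM' _ h2 h1 (b ^ (k + 1))⁻¹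
          simpa using this
        · have := hAM' _ hcA hcM (a * b)⁻¹
          simpa using this
      · rw [pow_succ, hc, pow_succ a, pow_succ b]
        group
  let B : Subgroup G :=
    { carrier := {a | a ∈ A ∧ a ^ p ∈ M}
      one_mem' := ⟨A.one_mem, by rw [one_pow]; exact M.one_mem⟩
      mul_mem' := by
        rintro a b ⟨ha, ha'⟩ ⟨hb, hb'⟩
        obtain ⟨c, _, hc, hc'⟩ := hpowM a ha b hb p
        exact ⟨A.mul_mem ha hb, by rw [hc']; exact M.mul_mem (M.mul_mem ha' hb') hc⟩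
      inv_mem' := by
        rintro a ⟨ha, ha'⟩
        exact ⟨A.inv_mem ha, by rw [inv_pow]; exact M.inv_mem ha'⟩ }
  have hBA : B ≤ A := fun x hx => hx.1
  have hBn : B.Normal := by
    constructor
    rintro x ⟨hx, hx'⟩ g
    refine ⟨hAn.conj_mem x hx g, ?_⟩
    rw [conj_pow]
    exact hAM' _ (A.pow_mem hx p) hx' g
  -- B is not inside M
  have hBM : ¬ B ≤ M := by
    intro hBM
    -- the quotient A / (A ∩ M) has an element of order p
    have hnorm : (M.subgroupOf A).Normal := by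
      constructor
      intro x hx g
      exact hAM' x x.2 hx g
    obtain ⟨q, hq⟩ := exists_prime_orderOf_dvd_card' (G := A ⧸ M.subgroupOf A) p hpd
    obtain ⟨a, rfl⟩ := QuotientGroup.mk_surjective q
    have h1 : a ^ p ∈ M.subgroupOf A := by
      rw [← QuotientGroup.eq_one_iff, QuotientGroup.mk_pow, ← hq]
      exact pow_orderOf_eq_one _
    have h2 : (a : G) ∈ B := ⟨a.2, h1⟩
    have h3 : a ∈ M.subgroupOf A := hBM h2
    rw [← QuotientGroup.eq_one_iff] at h3
    rw [h3, orderOf_one] at hq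
    exact hp.one_lt.ne hq
  have hBsup : B ⊔ M = ⊤ := by
    apply hM.2
    refine lt_of_le_of_ne le_sup_right ?_
    intro h
    apply hBM
    rw [h]; exact le_sup_left
  have hAB : ∀ a ∈ A, a ^ p ∈ M := by
    intro a ha
    have : a ∈ B ⊔ M := by rw [hBsup]; trivial
    rw [Subgroup.mem_sup_of_normal_left] at this
    obtain ⟨b, hb, m, hm', rfl⟩ := this
    have hmA : m ∈ A := by
      have := A.mul_mem (A.inv_mem (hBA hb)) ha
      simpa using this
    obtain ⟨c, _, hc, hc'⟩ := hpowM b (hBA hb) m hmA p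
    rw [hc']
    exact M.mul_mem (M.mul_mem hb.2 (M.pow_mem hm' p)) hc
  have hnorm : (M.subgroupOf A).Normal := by
    constructor
    intro x hx g
    exact hAM' x x.2 hx g
  have hPG : IsPGroup p (A ⧸ M.subgroupOf A) := by
    intro q
    obtain ⟨a, rfl⟩ := QuotientGroup.mk_surjective q
    refine ⟨1, ?_⟩
    rw [pow_one, ← QuotientGroup.mk_pow, QuotientGroup.eq_one_iff]
    exact hAB a a.2
  obtain ⟨k, hk⟩ := hPG.exists_card_eq
  refine ⟨p, k, hp, ?_, by rw [hidx]; exact hk⟩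
  rintro rfl
  rw [pow_zero] at hk
  exact hne1 hk

end Cfsg.Agent.H3
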