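import Mathlib
import Cfsg.Agent.H3.Basic

set_option autoImplicit false

namespace Cfsg.Agent.H3

/-- a normal subgroup has a supplement whose order involves only the primes dividing the index -/
theorem exists_supplement {G : Type*} [Group G] [Finite G] (N : Subgroup G) [hN : N.Normal] :
    ∃ H : Subgroup G, H ⊔ N = ⊤ ∧ ∀ p : ℕ, p.Prime → p ∣ Nat.card H → p ∣ N.index := by
  classical
  obtain ⟨H, hH⟩ := (Set.toFinite {H : Subgroup G | H ⊔ N = ⊤}).exists_minimal ⟨⊤, by simp⟩
  have hHtop : H ⊔ N = ⊤ := hH.prop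
  refine ⟨H, hHtop, ?_⟩
  intro p hp hpd
  by_contra hcon
  have := Fact.mk hp
  have hidx : (N.subgroupOf H).index = N.index := by
    have h1 : N.relIndex (H ⊔ N) = N.relIndex H := Subgroup.relIndex_sup_right H N
    rw [hHtop, Subgroup.relIndex_top_right] at h1
    exact h1.symm
  obtain ⟨P⟩ : Nonempty (Sylow p H) := inferInstance
  have hPK : (P : Subgroup H) ≤ N.subgroupOf H := by
    intro x hx
    obtain ⟨k, hk⟩ := (IsPGroup.iff_orderOf.mp P.2) ⟨x, hx⟩
    rw [Subgroup.orderOf_mk] at hk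
    rw [← QuotientGroup.eq_one_iff, ← orderOf_eq_one_iff]
    have h1 : orderOf (x : H ⧸ N.subgroupOf H) ∣ p ^ k := hk ▸ orderOf_map_dvd (QuotientGroup.mk' (N.subgroupOf H)) x
    have h2 : orderOf (x : H ⧸ N.subgroupOf H) ∣ N.index := by
      rw [← hidx]; exact orderOf_dvd_natCard _
    have h3 : Nat.Coprime (p ^ k) N.index := Nat.Coprime.pow_left _ ((Nat.Prime.coprime_iff_not_dvd hp).mpr hcon)
    exact Nat.eq_one_of_dvd_coprimes h3 h1 h2
  have hfr := Sylow.normalizer_sup_eq_top' P hPK
  have hmapK : ((N.subgroupOf H).map H.subtype) ≤ N := by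
    rw [Subgroup.subgroupOf_map_subtype]; exact inf_le_left
  have key : ∀ L : Subgroup H, L ⊔ (N.subgroupOf H) = ⊤ → L = ⊤ := by
    intro L hL
    have h1 : (L.map H.subtype) ⊔ N = ⊤ := by
      rw [← top_le_iff, ← hHtop]
      refine sup_le ?_ le_sup_right
      have h2 : H = (L ⊔ (N.subgroupOf H)).map H.subtype := by
        rw [hL, ← MonoidHom.range_eq_map, Subgroup.range_subtype]
      calc H = (L ⊔ (N.subgroupOf H)).map H.subtype := h2
        _ = L.map H.subtype ⊔ (N.subgroupOf H).map H.subtype := Subgroup.map_sup _ _ _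
        _ ≤ _ := sup_le_sup le_rfl hmapK
    have h2 : H ≤ L.map H.subtype := hH.le_of_le h1 (Subgroup.map_subtype_le L)
    rw [← top_le_iff]
    intro x _
    obtain ⟨y, hy, hyx⟩ := h2 x.2
    have : y = x := Subtype.ext hyx
    rw [← this]; exact hy
  have hPn : (P : Subgroup H).Normal := by
    rw [← Subgroup.normalizer_eq_top_iff]
    exact key _ hfr
  have hcop : Nat.Coprime (Nat.card (P : Subgroup H)) (P : Subgroup H).index := P.card_coprime_index
  obtain ⟨L, hL⟩ := Subgroup.exists_right_complement'_of_coprime hcop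
  have hL2 : L = ⊤ := by
    apply key
    rw [← top_le_iff, ← hL.sup_eq_top]
    exact sup_le (hPK.trans le_sup_right) le_sup_left
  have h4 := hL.disjoint
  rw [hL2, disjoint_top] at h4
  have h5 := P.dvd_card_of_dvd_card hpd
  rw [h4, Subgroup.card_bot] at h5
  exact hp.one_lt.ne' (Nat.dvd_one.mp h5)

end Cfsg.Agent.H3
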