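import Mathlib
import Cfsg.Prelude
import Cfsg.Agent.H1.Basic

set_option autoImplicit false
set_option linter.all false
open Cfsg
open Subgroup
open scoped commutatorElement

namespace Cfsg.Agent.H3
universe u

theorem commutator_le_coatom {D : Type*} [Group D] [Finite D] [hD : Group.IsNilpotent D] {M : Subgroup D} (hM : IsCoatom M) :
    commutator D ≤ M := by
  haveI hMn : M.Normal := Subgroup.NormalizerCondition.normal_of_coatom M (Group.normalizerCondition_of_isNilpotent) hM
  haveI : Nontrivial (D ⧸ M) := by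
    rw [← Finite.one_lt_card_iff_nontrivial]
    have h1 : M.index ≠ 1 := fun h => hM.1 (Subgroup.index_eq_one.1 h)
    have h2 : M.index ≠ 0 := Subgroup.index_ne_zero_of_finite
    have h3 : Nat.card (D ⧸ M) = M.index := rfl
    omega
  have h1 : center (D ⧸ M) ≠ ⊥ := Group.IsNilpotent.center_ne_bot _
  have h2 : (center (D ⧸ M)).comap (QuotientGroup.mk' M) = ⊤ := by
    apply hM.2
    refine lt_of_le_of_ne ?_ ?_
    · intro y hy
      rw [mem_comap, (QuotientGroup.mk'_apply M y), (QuotientGroup.eq_one_iff y).2 hy]; exact one_mem _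
    · intro h
      apply h1
      rw [eq_bot_iff, ← Subgroup.map_comap_eq_self_of_surjective (QuotientGroup.mk'_surjective M) (center (D ⧸ M)), ← h]
      rintro _ ⟨y, hy, rfl⟩
      exact (QuotientGroup.eq_one_iff y).2 hy
  rw [_root_.commutator_def, Subgroup.commutator_le]
  intro a _ b _
  have h3 : a ∈ (center (D ⧸ M)).comap (QuotientGroup.mk' M) := by rw [h2]; trivial
  rw [mem_comap, mem_center_iff] at h3
  have h4 := h3 (QuotientGroup.mk' M b)
  rw [← map_mul, ← map_mul] at h4
  have h5 := QuotientGroup.eq.1 h4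
  rw [commutatorElement_def]
  have e : a * b * a⁻¹ * b⁻¹ = (a * b) * ((b * a)⁻¹ * (a * b)) * (a * b)⁻¹ := by group
  rw [e]
  exact hMn.conj_mem _ h5 _

theorem orbit_step {Ω : Type*} [Finite Ω] {p : ℕ} [hp : Fact p.Prime] {D : Subgroup (Equiv.Perm Ω)} (hD : IsPGroup p D)
    (x : Ω) (m : ℕ) (h : (MulAction.orbit D x).ncard ≤ p ^ (m + 1)) :
    (MulAction.orbit ↥⁅D, D⁆ x).ncard ≤ p ^ m := by
  haveI := hD.isNilpotent
  have hfin : ∀ s : Set Ω, s.Finite := fun s => Set.toFinite s
  by_cases hS : MulAction.stabilizer D x = ⊤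
  · have h1 : (MulAction.orbit D x).ncard = 1 := by
      rw [← MulAction.index_stabilizer, hS, Subgroup.index_top]
    have h2 : MulAction.orbit ↥⁅D, D⁆ x ⊆ MulAction.orbit D x := by
      rintro _ ⟨g, rfl⟩
      exact ⟨⟨g, Subgroup.commutator_le_self D g.2⟩, rfl⟩
    calc (MulAction.orbit ↥⁅D, D⁆ x).ncard ≤ (MulAction.orbit D x).ncard := Set.ncard_le_ncard h2 (hfin _)
      _ = 1 := h1
      _ ≤ p ^ m := Nat.one_le_pow _ _ hp.out.pos
  · obtain ⟨M, hM, hSM⟩ := (eq_top_or_exists_le_coatom (MulAction.stabilizer D x)).resolve_left hS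
    have hcM := commutator_le_coatom hM
    have h2 : MulAction.orbit ↥⁅D, D⁆ x ⊆ MulAction.orbit M x := by
      rintro _ ⟨g, rfl⟩
      have h3 : (g : Equiv.Perm Ω) ∈ (commutator D).map D.subtype := by
        rw [_root_.commutator_def, Subgroup.map_commutator, ← MonoidHom.range_eq_map, Subgroup.range_subtype]
        exact g.2
      obtain ⟨d, hd, hdg⟩ := h3
      refine ⟨⟨d, hcM hd⟩, ?_⟩
      show (d : Equiv.Perm Ω) • x = (g : Equiv.Perm Ω) • x
      rw [← hdg]; rfl
    have h3 : (MulAction.orbit M x).ncard = (MulAction.stabilizer D x).relIndex M := by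
      rw [← MulAction.index_stabilizer]
      rfl
    have h4 := Subgroup.relIndex_mul_index hSM
    have h5 : (MulAction.stabilizer D x).index = (MulAction.orbit D x).ncard := MulAction.index_stabilizer _ _
    have h6 : p ≤ M.index := by
      obtain ⟨s, hs⟩ := hD.index M
      have hs0 : s ≠ 0 := by
        rintro rfl
        rw [pow_zero, Subgroup.index_eq_one] at hs
        exact hM.1 hs
      rw [hs]
      exact Nat.le_self_pow hs0 p
    have h7 : (MulAction.orbit M x).ncard * p ≤ p ^ m * p := by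
      rw [h3, ← pow_succ]
      refine le_trans ?_ h
      rw [← h5, ← h4]
      exact Nat.mul_le_mul_left _ h6
    exact (Set.ncard_le_ncard h2 (hfin _)).trans (Nat.le_of_mul_le_mul_right h7 hp.out.pos)

theorem derived_upper {Ω : Type*} [Finite Ω] {p : ℕ} [hp : Fact p.Prime] {P : Subgroup (Equiv.Perm Ω)} (hP : IsPGroup p P)
    (k : ℕ) (hk : ∀ x : Ω, (MulAction.orbit P x).ncard ≤ p ^ k) : derivedSeries P k = ⊥ := by
  have key : ∀ i ≤ k, ∀ x : Ω, (MulAction.orbit ↥((derivedSeries P i).map P.subtype) x).ncard ≤ p ^ (k - i) := by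
    intro i
    induction i with
    | zero =>
      intro _ x
      have h1 : (derivedSeries P 0).map P.subtype = P := by
        rw [derivedSeries_zero, ← MonoidHom.range_eq_map, Subgroup.range_subtype]
      rw [h1]
      exact hk x
    | succ i ih =>
      intro hi x
      rw [derivedSeries_succ, Subgroup.map_commutator]
      apply orbit_step (hP.to_le (Subgroup.map_subtype_le _))
      have := ih (by omega) x
      rwa [show k - i = k - (i + 1) + 1 by omega] at this
  have h1 := key k le_rfl
  rw [Nat.sub_self, pow_zero] at h1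
  rw [eq_bot_iff]
  intro g hg
  rw [mem_bot]
  apply Subtype.ext
  apply Equiv.ext
  intro x
  have h2 := h1 x
  rw [Set.ncard_le_one (Set.toFinite _)] at h2
  exact h2 _ ⟨⟨(g : Equiv.Perm Ω), ⟨g, hg, rfl⟩⟩, rfl⟩ _ (MulAction.mem_orbit_self x)

open RegularWreathProduct in
theorem wreath_step {W Q : Type*} [Group W] [Group Q] (q : Q) (hq : q ≠ 1) (i : ℕ) :
    derivedSeries W i ≤ ((derivedSeries (W ≀ᵣ Q) (i + 1)).subgroupOf (rightHom : W ≀ᵣ Q →* Q).ker).map
      ({ toFun := fun w => (w : W ≀ᵣ Q).left 1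
         map_one' := rfl
         map_mul' := by
           rintro ⟨a, ha⟩ ⟨b, hb⟩
           have ha' : a.right = 1 := ha
           show (a * b).left 1 = _
           rw [RegularWreathProduct.mul_left, ha']
           simp } : (rightHom : W ≀ᵣ Q →* Q).ker →* W) := by
  classical
  induction i with
  | zero =>
    intro d _
    let f : Q → W := Pi.mulSingle 1 d
    let a : W ≀ᵣ Q := ⟨f, 1⟩
    let b : W ≀ᵣ Q := inl q
    have hright : (⁅a, b⁆ : W ≀ᵣ Q).right = 1 := by
      rw [commutatorElement_def]; simp [a, b]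
    refine ⟨⟨⁅a, b⁆, hright⟩, ?_, ?_⟩
    · show ⁅a, b⁆ ∈ derivedSeries (W ≀ᵣ Q) 1
      exact Subgroup.commutator_mem_commutator (mem_top _) (mem_top _)
    · show (⁅a, b⁆ : W ≀ᵣ Q).left 1 = d
      rw [commutatorElement_def]
      simp [a, b, f, hq]
  | succ i ih =>
    rw [derivedSeries_succ]
    refine (Subgroup.commutator_mono ih ih).trans ?_
    rw [← Subgroup.map_commutator]
    apply Subgroup.map_mono
    rw [Subgroup.commutator_le]
    intro a ha b hb
    rw [mem_subgroupOf] at ha hb ⊢
    rw [derivedSeries_succ]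
    exact Subgroup.commutator_mem_commutator ha hb

open RegularWreathProduct in
theorem exists_wreath (p : ℕ) [hp : Fact p.Prime] (k : ℕ) : ∃ (W : Type) (_ : Group W) (_ : Finite W) (Λ : Type) (_ : Nonempty Λ) (_ : MulAction W Λ),
    FaithfulSMul W Λ ∧ IsPGroup p W ∧ Nat.card Λ = p ^ (k + 1) ∧ derivedSeries W k ≠ ⊥ := by
  induction k with
  | zero =>
    refine ⟨Multiplicative (ZMod p), inferInstance, inferInstance, Multiplicative (ZMod p), inferInstance, inferInstance, inferInstance, ?_, ?_, ?_⟩
    · exact IsPGroup.of_card (n := 1) (by rw [pow_one]; exact Nat.card_zmod p)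
    · rw [zero_add, pow_one]; exact Nat.card_zmod p
    · rw [derivedSeries_zero]
      exact top_ne_bot
  | succ k ih =>
    obtain ⟨W, i1, i2, Λ, i3, i4, hf, hp', hc, hd⟩ := ih
    refine ⟨W ≀ᵣ Multiplicative (ZMod p), inferInstance, inferInstance, Λ × Multiplicative (ZMod p), inferInstance, inferInstance, inferInstance, ?_, ?_, ?_⟩
    · obtain ⟨n, hn⟩ := IsPGroup.iff_card.mp hp'
      have h1 : Nat.card (Multiplicative (ZMod p)) = p := Nat.card_zmod p
      apply IsPGroup.of_card (n := n * p + 1)
      rw [RegularWreathProduct.card, hn, h1, ← pow_mul, pow_succ]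
    · have h1 : Nat.card (Multiplicative (ZMod p)) = p := Nat.card_zmod p
      rw [Nat.card_prod, hc, h1, ← pow_succ]
    · intro hb
      apply hd
      obtain ⟨q, hq⟩ := exists_ne (1 : Multiplicative (ZMod p))
      have h1 := wreath_step (W := W) q hq k
      rw [hb] at h1
      rw [eq_bot_iff]
      refine h1.trans ?_
      rintro _ ⟨x, hx, rfl⟩
      have h2 : x = 1 := Subtype.ext hx
      rw [h2, map_one]
      exact one_mem _

end Cfsg.Agent.H3
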