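import Mathlib

set_option autoImplicit false

/-! Unipotent endomorphisms in characteristic `p`. -/

namespace Cfsg.Agent.H3

open Polynomial

theorem pow_finrank_eq_zero_of_isNilpotent {K V : Type*} [Field K] [AddCommGroup V] [Module K V] [FiniteDimensional K V]
    (f : Module.End K V) (hf : IsNilpotent f) : f ^ Module.finrank K V = 0 := by
  have h1 : f.charpoly = X ^ Module.finrank K V := ((LinearMap.charpoly_nilpotent_tfae f).out 0 1).mp hf
  have h2 := LinearMap.aeval_self_charpoly f
  rw [h1] at h2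
  simpa using h2

/-- the geometric sum of length `p ^ s` in characteristic `p` -/
theorem geom_sum_eq_pow {K : Type*} [Field K] (p s : ℕ) [hp : Fact p.Prime] [CharP K p] :
    ∑ j ∈ Finset.range (p ^ s), (X : K[X]) ^ j = (X - 1) ^ (p ^ s - 1) := by
  have h0 : (X - 1 : K[X]) ≠ 0 := by
    have := X_sub_C_ne_zero (1 : K)
    rwa [map_one] at this
  apply mul_left_cancel₀ h0
  rw [mul_geom_sum, ← pow_succ', Nat.sub_add_cancel (Nat.one_le_pow _ _ hp.out.pos), sub_pow_char_pow, one_pow]

theorem geom_sum_end_eq_pow {K V : Type*} [Field K] (p s : ℕ) [Fact p.Prime] [CharP K p] [AddCommGroup V] [Module K V]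
    (u : Module.End K V) : ∑ j ∈ Finset.range (p ^ s), u ^ j = (u - 1) ^ (p ^ s - 1) := by
  have h := congrArg (aeval u) (geom_sum_eq_pow (K := K) p s)
  simpa using h

theorem unipotent_pow {K V : Type*} [Field K] (p s : ℕ) [Fact p.Prime] [CharP K p] [AddCommGroup V] [Module K V]
    (u : Module.End K V) : (u - 1) ^ (p ^ s) = u ^ (p ^ s) - 1 := by
  have h1 : ((X : K[X]) - 1) ^ (p ^ s) = X ^ (p ^ s) - 1 := by rw [sub_pow_char_pow, one_pow]
  have h := congrArg (aeval u) h1
  simpa using h

theorem unipotent_pow_finrank {K V : Type*} [Field K] (p s : ℕ) [Fact p.Prime] [CharP K p] [AddCommGroup V] [Module K V]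
    [FiniteDimensional K V] (u : Module.End K V) (hu : u ^ (p ^ s) = 1) : (u - 1) ^ Module.finrank K V = 0 := by
  apply pow_finrank_eq_zero_of_isNilpotent
  exact ⟨p ^ s, by rw [unipotent_pow, hu, sub_self]⟩

theorem sum_iterate_eq_zero_aux {V : Type*} [AddCommGroup V] [Finite V] (p m r s : ℕ) [hp : Fact p.Prime]
    [Module (ZMod p) V]
    (hA : Nat.card V = p ^ m) (c : V →+ V) (hc : ∀ a, c^[p ^ r] a = a)
    (hs : m + 1 ≤ p ^ s) (a : V) : ∑ j ∈ Finset.range (p ^ s), c^[j] a = 0 := by
  have hrank : Module.finrank (ZMod p) V = m := by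
    have h1 := Module.natCard_eq_pow_finrank (K := ZMod p) (V := V)
    rw [Nat.card_zmod, hA] at h1
    exact (Nat.pow_right_injective hp.out.two_le h1).symm
  let u : Module.End (ZMod p) V := AddMonoidHom.toZModLinearMap p c
  have hupow : ∀ (i : ℕ) (n : V), (u ^ i) n = c^[i] n := by
    intro i
    induction i with
    | zero => intro n; rfl
    | succ i ih =>
      intro n
      rw [pow_succ, Module.End.mul_apply]
      have : u n = c n := rfl
      rw [this, ih, Function.iterate_succ_apply]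
  have hu1 : u ^ (p ^ r) = 1 := by
    apply LinearMap.ext
    intro v
    rw [hupow, hc]
    rfl
  have hu2 := unipotent_pow_finrank p r u hu1
  rw [hrank] at hu2
  have hu3 : ∑ j ∈ Finset.range (p ^ s), u ^ j = 0 := by
    rw [geom_sum_end_eq_pow]
    exact pow_eq_zero_of_le (by omega) hu2
  have h4 := congrArg (fun f : Module.End (ZMod p) V => f a) hu3
  simp only [LinearMap.sum_apply, hupow, LinearMap.zero_apply] at h4
  exact h4

theorem sum_iterate_eq_zero {V : Type*} [AddCommGroup V] [Finite V] (p m r s : ℕ) [hp : Fact p.Prime]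
    (hA : Nat.card V = p ^ m) (hA1 : ∀ a : V, p • a = 0) (c : V →+ V) (hc : ∀ a, c^[p ^ r] a = a)
    (hs : m + 1 ≤ p ^ s) (a : V) : ∑ j ∈ Finset.range (p ^ s), c^[j] a = 0 :=
  @sum_iterate_eq_zero_aux V _ _ p m r s _ (AddCommGroup.zmodModule hA1) hA c hc hs a

/-- For a `p`-element `c` acting on an elementary abelian group of order `p ^ m`, the norm of length `p ^ s ≥ m + 1`
vanishes. -/
theorem prod_iterate_eq_one {A : Type*} [CommGroup A] [Finite A] (p m r s : ℕ) [hp : Fact p.Prime]
    (hA : Nat.card A = p ^ m) (hA1 : ∀ a : A, a ^ p = 1) (c : A →* A) (hc : ∀ a, c^[p ^ r] a = a)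
    (hs : m + 1 ≤ p ^ s) (a : A) : ∏ j ∈ Finset.range (p ^ s), c^[j] a = 1 :=
  sum_iterate_eq_zero (V := Additive A) p m r s hA hA1 (MonoidHom.toAdditive c) hc hs a

end Cfsg.Agent.H3
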