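import Mathlib
import Cfsg.Agent.L0.Coprime2
import Cfsg.Agent.H1.Basic
import Cfsg.Agent.H1.Rank1

set_option autoImplicit false
set_option linter.style.haveILetI false

/-! coprime action on groups with cyclic Sylow subgroups -/

namespace Cfsg.Agent.H3

open Subgroup Cfsg.Agent.L0
open scoped commutatorElement

section
variable {Y : Type*} [Group Y]

theorem conj_pow_cyclic {W : Subgroup Y} (hW : IsCyclic W) {c : Y} (hc : c ∈ normalizer (W : Set Y)) :
    ∃ m : ℤ, ∀ w ∈ W, c * w * c⁻¹ = w ^ m := by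
  obtain ⟨m, hm⟩ := MonoidHom.map_cyclic ((Subgroup.normalizerMonoidHom W ⟨c, hc⟩ : MulAut W).toMonoidHom : W →* W)
  refine ⟨m, fun w hw => ?_⟩
  exact congrArg Subtype.val (hm ⟨w, hw⟩)

theorem comm_cent_cyclic {W : Subgroup Y} (hW : IsCyclic W) {a b : Y} (ha : a ∈ normalizer (W : Set Y)) (hb : b ∈ normalizer (W : Set Y)) :
    ⁅a, b⁆ ∈ centralizer (W : Set Y) := by
  obtain ⟨m, hm⟩ := conj_pow_cyclic hW ha
  obtain ⟨k, hk⟩ := conj_pow_cyclic hW hb
  rw [mem_centralizer_iff]
  intro w hw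
  have hw' : w ∈ W := hw
  have hv : (b * a)⁻¹ * w * (b * a) ∈ W := by
    have h1 : (b * a)⁻¹ ∈ normalizer (W : Set Y) := inv_mem (mul_mem hb ha)
    have h2 := ((mem_normalizer_iff.1 h1) w).1 hw'
    simpa using h2
  set v := (b * a)⁻¹ * w * (b * a) with hvd
  have h1 : (a * b) * v * (a * b)⁻¹ = (v ^ k) ^ m := by
    calc (a * b) * v * (a * b)⁻¹ = a * (b * v * b⁻¹) * a⁻¹ := by group
      _ = (v ^ k) ^ m := by rw [hk v hv, hm _ (zpow_mem hv k)]
  have h2 : (b * a) * v * (b * a)⁻¹ = (v ^ m) ^ k := by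
    calc (b * a) * v * (b * a)⁻¹ = b * (a * v * a⁻¹) * b⁻¹ := by group
      _ = (v ^ m) ^ k := by rw [hm v hv, hk _ (zpow_mem hv m)]
  have h3 : (v ^ k) ^ m = (v ^ m) ^ k := by rw [← zpow_mul, ← zpow_mul, mul_comm]
  have h4 : w = (b * a) * v * (b * a)⁻¹ := by rw [hvd]; group
  have h5 : (a * b) * v * (a * b)⁻¹ = w := by rw [h1, h3, ← h2, ← h4]
  have h6 : ⁅a, b⁆ * w * ⁅a, b⁆⁻¹ = w := by
    calc ⁅a, b⁆ * w * ⁅a, b⁆⁻¹ = (a * b) * v * (a * b)⁻¹ := by rw [hvd, commutatorElement_def]; group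
      _ = w := h5
  calc w * ⁅a, b⁆ = (⁅a, b⁆ * w * ⁅a, b⁆⁻¹) * ⁅a, b⁆ := by rw [h6]
    _ = ⁅a, b⁆ * w := by group

end

section
variable {Y : Type*} [Group Y] [Finite Y]

theorem zcop_cyclic {N E : Subgroup Y} (hN : N.Normal) (hcop : (Nat.card E).Coprime (Nat.card N)) (hZ : IsZGroup N) :
    IsCyclic (⁅N, E⁆ : Subgroup Y) ∧ (⁅N, E⁆ : Subgroup Y) ⊓ centralizer (E : Set Y) = ⊥ := by
  classical
  have hEN : E ≤ normalizer (N : Set Y) := by rw [Subgroup.normalizer_eq_top (H := N)]; exact le_top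
  haveI := hN
  haveI := hZ
  haveI hsol : Group.IsSolvable N := inferInstance
  set D : Subgroup Y := ⁅N, E⁆ with hD
  have hDN : D ≤ N := commutator_le_left N E
  have hDE : ⁅D, E⁆ = D := commutator_commutator_eq hEN hcop (Or.inr hsol)
  have hED : E ≤ normalizer (D : Set Y) := normalizer_commutator_ge_right _ _
  haveI hZD : IsZGroup D := IsZGroup.of_injective (Subgroup.inclusion_injective hDN)
  have hW : IsCyclic (⁅D, D⁆ : Subgroup Y) := by
    have h1 : IsCyclic (_root_.commutator D) := IsZGroup.isCyclic_commutator _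
    have h2 : (⁅D, D⁆ : Subgroup Y) = (_root_.commutator D).map D.subtype := by
      rw [_root_.commutator_def, map_commutator, ← MonoidHom.range_eq_map, Subgroup.range_subtype]
    rw [h2]
    exact isCyclic_of_surjective ((_root_.commutator D).equivMapOfInjective D.subtype D.subtype_injective)
      ((_root_.commutator D).equivMapOfInjective D.subtype D.subtype_injective).surjective
  have hDW : D ≤ normalizer ((⁅D, D⁆ : Subgroup Y) : Set Y) := normalizer_commutator_ge_left _ _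
  have hEW : E ≤ normalizer ((⁅D, D⁆ : Subgroup Y) : Set Y) := by
    intro e he
    apply H1.mem_normalizer_of_conj_mem
    have : ⁅D, D⁆ ≤ ⁅D, D⁆.comap (MulAut.conj e).toMonoidHom := by
      rw [commutator_le]
      intro a ha b hb
      show (MulAut.conj e).toMonoidHom ⁅a, b⁆ ∈ ⁅D, D⁆
      rw [map_commutatorElement]
      exact commutator_mem_commutator (((mem_normalizer_iff.1 (hED he)) a).1 ha) (((mem_normalizer_iff.1 (hED he)) b).1 hb)
    exact fun x hx => this hx
  have hcent : D ≤ centralizer ((⁅D, D⁆ : Subgroup Y) : Set Y) := by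
    have : ⁅D, E⁆ ≤ centralizer ((⁅D, D⁆ : Subgroup Y) : Set Y) :=
      commutator_le.2 fun a ha b hb => comm_cent_cyclic hW (hDW ha) (hEW hb)
    rwa [hDE] at this
  have hnil : Group.IsNilpotent D := by
    apply Subgroup.isNilpotent_of_ker_le_center (Abelianization.of (G := D))
    rw [Abelianization.ker_of]
    intro x hx
    rw [mem_center_iff]
    intro g
    have h2 : (x : Y) ∈ (⁅D, D⁆ : Subgroup Y) := by
      have h2 : (⁅D, D⁆ : Subgroup Y) = (_root_.commutator D).map D.subtype := by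
        rw [_root_.commutator_def, map_commutator, ← MonoidHom.range_eq_map, Subgroup.range_subtype]
      rw [h2]
      exact ⟨x, hx, rfl⟩
    have h3 := mem_centralizer_iff.1 (hcent g.2) x h2
    exact Subtype.ext h3.symm
  have hDc : IsCyclic D := inferInstance
  refine ⟨hDc, ?_⟩
  have hab : ∀ a ∈ D, ∀ b ∈ D, a * b = b * a := by
    intro a ha b hb
    have := hDc.isMulCommutative
    exact congrArg Subtype.val (this.1.1 (⟨a, ha⟩ : D) ⟨b, hb⟩)
  have h1 := centralizer_inf_commutator_of_abelian (A := E) (N := D) hED (Nat.Coprime.coprime_dvd_right (Subgroup.card_dvd_of_le hDN) hcop) hab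
  rw [hDE] at h1
  rw [← h1]
  apply le_antisymm
  · exact le_inf (le_inf inf_le_left inf_le_right) inf_le_left
  · exact le_inf inf_le_right (inf_le_left.trans inf_le_right)

theorem zcop_coprime {N E : Subgroup Y} (hN : N.Normal) (hcop : (Nat.card E).Coprime (Nat.card N)) (hZ : IsZGroup N) :
    (Nat.card (⁅N, E⁆ : Subgroup Y)).Coprime (Nat.card (N ⊓ centralizer (E : Set Y) : Subgroup Y)) := by
  classical
  obtain ⟨hDc, hbot⟩ := zcop_cyclic hN hcop hZ
  haveI := hN
  haveI := hZ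
  set D : Subgroup Y := ⁅N, E⁆ with hD
  have hDN : D ≤ N := commutator_le_left N E
  have hND : N ≤ normalizer (D : Set Y) := normalizer_commutator_ge_left _ _
  by_contra hnc
  obtain ⟨p, hp, hpD, hpC⟩ := Nat.Prime.not_coprime_iff_dvd.1 hnc
  haveI : Fact p.Prime := ⟨hp⟩
  obtain ⟨y, hy⟩ := exists_prime_orderOf_dvd_card' (G := D) p hpD
  obtain ⟨x, hx⟩ := exists_prime_orderOf_dvd_card' (G := (N ⊓ centralizer (E : Set Y) : Subgroup Y)) p hpC
  have hy' : orderOf (y : Y) = p := by rw [← hy]; exact orderOf_coe y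
  have hx' : orderOf (x : Y) = p := by rw [← hx]; exact orderOf_coe x
  have hxN : (x : Y) ∈ N := x.2.1
  obtain ⟨m, hm⟩ := conj_pow_cyclic hDc (hND hxN)
  have hxy : (x : Y) ∈ normalizer ((zpowers (y : Y) : Subgroup Y) : Set Y) := by
    apply H1.mem_normalizer_of_conj_mem
    intro z hz
    have hzD : z ∈ D := (zpowers_le.2 y.2) hz
    rw [hm z hzD]
    exact zpow_mem hz m
  have hpg : IsPGroup p (zpowers (x : Y) ⊔ zpowers (y : Y) : Subgroup Y) := by
    apply IsPGroup.to_sup_of_normal_right'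
    · exact IsPGroup.of_card (n := 1) (by rw [Nat.card_zpowers, hx', pow_one])
    · exact IsPGroup.of_card (n := 1) (by rw [Nat.card_zpowers, hy', pow_one])
    · rw [zpowers_le]; exact hxy
  have hle : zpowers (x : Y) ⊔ zpowers (y : Y) ≤ N := sup_le (zpowers_le.2 hxN) (zpowers_le.2 (hDN y.2))
  have hcyc : IsCyclic (zpowers (x : Y) ⊔ zpowers (y : Y) : Subgroup Y) := by
    haveI : IsZGroup (zpowers (x : Y) ⊔ zpowers (y : Y) : Subgroup Y) := IsZGroup.of_injective (Subgroup.inclusion_injective hle)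
    haveI : Group.IsNilpotent (zpowers (x : Y) ⊔ zpowers (y : Y) : Subgroup Y) := hpg.isNilpotent
    infer_instance
  have h1 : zpowers (x : Y) ≤ zpowers (y : Y) :=
    H1.sub_total_of_card hcyc le_sup_left le_sup_right (by rw [Nat.card_zpowers, Nat.card_zpowers, hx', hy'])
  have h2 : (x : Y) ∈ D ⊓ centralizer (E : Set Y) := ⟨(zpowers_le.2 y.2) (h1 (mem_zpowers _)), x.2.2⟩
  rw [hbot, mem_bot] at h2
  rw [h2, orderOf_one] at hx'
  exact hp.one_lt.ne hx'

end

end Cfsg.Agent.H3
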